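import Cfsg.Agent.H911.TD.Psi
import Cfsg.Agent.H922.RG.MTwo

/-!
# S3509, `³D₄(q)`, second class of triality automorphisms: the Weyl element exchanging `X ![1, 2]` and `X ![-1, -2]` (helper922)

* `N0` : `mm * n 1 * mm⁻¹ = Psi (wS 1)`; `N0_mem`, `N0_rp`;
* `map_N0`, `imgH_N0` : `ImgH q X (X.map (conj N0))`, `X = X_{12} ∩ Cx x₀`.
-/

set_option autoImplicit false
set_option linter.unusedSectionVars false
set_option maxHeartbeats 400000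

namespace Cfsg.Agent.H922.TD

open CoxeterSystem Cfsg.Agent.ChevalleyStructure.CoxeterGeom Cfsg.Agent.Tits.Roots Cfsg.Agent.Tits.Core
  Cfsg.Agent.Tits.Exchange Cfsg.Agent.Nodes.Reps Cfsg.Agent.Nodes.BNOf Cfsg.Agent.Nodes.StabComb
  Cfsg.Agent.Nodes.Bruhat Cfsg.Agent.Nodes.OppDec Cfsg.Agent.Nodes.LeviDec Cfsg.Agent.Nodes.RGDTwGen
  Cfsg.Agent.Nodes.RGDChev Cfsg.Agent.Nodes.RGDFold Cfsg.Agent.Nodes.RGDFoldSL
open Cfsg.Agent.KFacts.RgdOpp Cfsg.Agent.KFacts.RgdAut Cfsg.Agent.KFacts.RgdDiag Cfsg.Agent.KFacts.RgdRigid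
  Cfsg.Agent.KFacts.RgdField Cfsg.Agent.KFacts.RgdTau Cfsg.Agent.KFacts.RgdNodes
open Cfsg Cfsg.Lie Cfsg.Agent.ChevalleyStructure Cfsg.Agent.ChevalleyStructure.Elts
open Cfsg.Agent.ChevalleyStructure.SL2Hom (up lo mem_closure_SL2)
open Cfsg.Agent.KFacts.TwDFour.Out
open Cfsg.Agent.Nodes.RGDTwD4 Cfsg.Agent.Nodes.RGDTwNode.D4
open Cfsg.Agent.CpAut.RgdFix Cfsg.Agent.CpAut.RgdConj Cfsg.Agent.CpAut.RgdTwStd Cfsg.Agent.CpAut.RgdTwD4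
open Cfsg.Agent.H28.FamFour (st_mul st_one)
open Cfsg.Agent.H866.D4Wf.Frame Cfsg.Agent.H866.D4Wf.SLThree Cfsg.Agent.H866.TD
open Cfsg.Agent.H922.RG (Cx mem_Cx)
open Cfsg.Agent.H884.NA (ImgH)
open Cfsg.Agent.H911.TD (mm Fxo mem_Fxo xo)

/-- conjugation by `wS 1` -/
theorem wS_up {F : Type*} [Field F] (t : F) :
    (wS 1 : Matrix.SpecialLinearGroup (Fin 2) F) * up t * (wS 1)⁻¹ = lo (-t) := by
  rw [mul_inv_eq_iff_eq_mul]
  apply Subtype.ext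
  rw [Matrix.SpecialLinearGroup.coe_mul, Matrix.SpecialLinearGroup.coe_mul, coe_wS one_ne_zero]
  show (!![0, 1; -(1 : F)⁻¹, 0] : Matrix (Fin 2) (Fin 2) F) * (up t).1 = (lo (-t)).1 * !![0, 1; -(1 : F)⁻¹, 0]
  ext i j
  fin_cases i <;> fin_cases j <;> simp [up, lo, Matrix.mul_apply, Fin.sum_univ_two]

variable {K : Type} [Field K] [Fintype K] {q : ℕ} (hK : Fintype.card K = q ^ 3)
  {φ : K →+* K} (hφ : ∀ x, φ x = x ^ q)

/-- the element exchanging `X ![1, 2]` and `X ![-1, -2]` -/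
noncomputable abbrev N0 : ↥(twistedD4 K q) := mm hφ * n hφ 1 * (mm hφ)⁻¹

theorem N0_eq : N0 hφ = H911.TD.Psi hK hφ (wS 1) := by
  have h1 : Matrix.SpecialLinearGroup.map (H911.TD.inc hK hφ) (wS 1) = wS 1 := by
    refine Subtype.ext (Matrix.ext fun i j => ?_)
    show H911.TD.inc hK hφ ((wS 1 : Matrix.SpecialLinearGroup (Fin 2) (KD φ 0)).1 i j) =
      (wS 1 : Matrix.SpecialLinearGroup (Fin 2) (KD φ 1)).1 i j
    rw [coe_wS one_ne_zero, coe_wS one_ne_zero]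
    fin_cases i <;> fin_cases j <;> simp
  show _ = mm hφ * PhiD hφ hK 1 (Matrix.SpecialLinearGroup.map (H911.TD.inc hK hφ) (wS 1)) * (mm hφ)⁻¹
  rw [h1, PhiD_wS]

theorem N0_mem (A : Matrix.SpecialLinearGroup (Fin 2) (KD φ 0)) (hq : IsPrimePow q) {τ : K ≃+* K} (hτ : τ ^ 3 = 1) :
    N0 hφ ∈ Fxo hK hφ A τ := by
  rw [N0_eq hK]
  exact H911.TD.psi_mem_Fxo hK hφ A hq hτ _

theorem map_N0 (A : Matrix.SpecialLinearGroup (Fin 2) (KD φ 0)) (hq : IsPrimePow q) {τ : K ≃+* K} (hτ : τ ^ 3 = 1)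
    (hτ1 : τ ≠ 1) : (X φ q ![1, 2] ⊓ Fxo hK hφ A τ).map (MulAut.conj (N0 hφ)).toMonoidHom =
      X φ q ![-1, -2] ⊓ Fxo hK hφ A τ := by
  ext y
  rw [H911.TD.lo_iff hK hφ A hq hτ hτ1]
  constructor
  · rintro ⟨x, hx, rfl⟩
    obtain ⟨t, rfl⟩ := (H911.TD.up_iff hK hφ A hq hτ hτ1 x).1 hx
    refine ⟨-t, ?_⟩
    show _ = N0 hφ * H911.TD.Psi hK hφ (up t) * (N0 hφ)⁻¹
    rw [N0_eq hK, ← map_mul, ← map_inv, ← map_mul, wS_up]
  · rintro ⟨t, rfl⟩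
    refine ⟨H911.TD.Psi hK hφ (up (-t)), (H911.TD.up_iff hK hφ A hq hτ hτ1 _).2 ⟨_, rfl⟩, ?_⟩
    show N0 hφ * H911.TD.Psi hK hφ (up (-t)) * (N0 hφ)⁻¹ = _
    rw [N0_eq hK, ← map_mul, ← map_inv, ← map_mul, wS_up, neg_neg]

theorem imgH_N0 (A : Matrix.SpecialLinearGroup (Fin 2) (KD φ 0)) (hq : IsPrimePow q) {τ : K ≃+* K} (hτ : τ ^ 3 = 1)
    (hτ1 : τ ≠ 1) : ImgH q (X φ q ![1, 2] ⊓ Fxo hK hφ A τ)
      ((X φ q ![1, 2] ⊓ Fxo hK hφ A τ).map (MulAut.conj (N0 hφ)).toMonoidHom) := by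
  rw [map_N0 hK hφ A hq hτ hτ1]
  exact H911.TD.imgH hK hφ A hq hτ hτ1

/-- the Weyl group element -/
def w0 : CoxeterMatrix.G₂.Group :=
  cs.simple 1 * cs.simple 0 * cs.simple 1 * (cs.simple 1 * cs.simple 0)⁻¹

theorem N0_rp (r : ℕ) [Fact r.Prime] [CharP K r] : Rp cs (rgd' hK hφ r).nsys w0 (N0 hφ) := by
  have R := (rgd' hK hφ r).nsys
  have h0 := rp_simple cs (rgd' hK hφ r).nsys 0
  have h1 := rp_simple cs (rgd' hK hφ r).nsys 1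
  exact ((h1.mul h0).mul h1).mul (h1.mul h0).inv

theorem w0_sr0 : rep cs isCartan w0 (sr 0) = sr 0 := by
  unfold w0
  rw [mul_inv_rev, cs.inv_simple, cs.inv_simple]
  simp only [rep_mul_apply]
  rw [sr0_eq, rep1, rep0, rep1, rep0, rep1]
  decide

theorem w0_sr1 : rep cs isCartan w0 (sr 1) = ![-1, -1] := by
  unfold w0
  rw [mul_inv_rev, cs.inv_simple, cs.inv_simple]
  simp only [rep_mul_apply]
  rw [sr1_eq, rep1, rep0, rep1, rep0, rep1]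
  decide

end Cfsg.Agent.H922.TD
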