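import Cfsg.Agent.H911.TD.Psi
import Cfsg.Agent.H442.TD.FThree
import Cfsg.Agent.H922.RG.MTwo

/-!
# S3509, `³D₄(q)`, second class of triality automorphisms, `q ≡ 2 mod 3`: the case `q = 5` (helper922)

* `Cx_eq` : `Cx x₀` is `Fxo`;
* `not_dvd_1440` : an `r`-group `R` with a proper subgroup of order `q`, `q ∈ {4, 5, 9}` … `q = 5` : `|R| ∤ 1440`;
* `exists_R` : `q % 3 = 2`, `q ∈ {4, 5, 9}` : `R = V_{0} ∩ Cx x₀`, `|R| ∤ 1440`.
-/

set_option autoImplicit false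
set_option linter.unusedSectionVars false
set_option maxHeartbeats 400000

namespace Cfsg.Agent.H922.TD

open CoxeterSystem Cfsg.Agent.ChevalleyStructure.CoxeterGeom Cfsg.Agent.Tits.Roots Cfsg.Agent.Tits.Core
  Cfsg.Agent.Tits.Exchange Cfsg.Agent.Nodes.Reps Cfsg.Agent.Nodes.BNOf Cfsg.Agent.Nodes.StabComb
  Cfsg.Agent.Nodes.Bruhat Cfsg.Agent.Nodes.OppDec Cfsg.Agent.Nodes.LeviDec Cfsg.Agent.Nodes.RGDTwGen
  Cfsg.Agent.Nodes.RGDChev Cfsg.Agent.Nodes.RGDFold Cfsg.Agent.Nodes.RGDFoldSL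
open Cfsg.Agent.KFacts.RgdOpp Cfsg.Agent.KFacts.RgdAut Cfsg.Agent.KFacts.RgdDiag Cfsg.Agent.KFacts.RgdRigid
  Cfsg.Agent.KFacts.RgdField Cfsg.Agent.KFacts.RgdTau Cfsg.Agent.KFacts.RgdNodes
open Cfsg Cfsg.Lie Cfsg.Agent.ChevalleyStructure Cfsg.Agent.ChevalleyStructure.Elts
open Cfsg.Agent.ChevalleyStructure.SL2Hom (up lo mem_closure_SL2)
open Cfsg.Agent.KFacts.TwDFour.Out
open Cfsg.Agent.Nodes.RGDTwD4 Cfsg.Agent.Nodes.RGDTwNode.D4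
open Cfsg.Agent.CpAut.RgdFix Cfsg.Agent.CpAut.RgdConj Cfsg.Agent.CpAut.RgdTwStd Cfsg.Agent.CpAut.RgdTwD4
open Cfsg.Agent.H28.FamFour (st_mul st_one)
open Cfsg.Agent.H866.D4Wf.Frame Cfsg.Agent.H866.D4Wf.SLThree Cfsg.Agent.H866.TD
open Cfsg.Agent.H922.RG (Cx mem_Cx)

/-- an `r`-group with a proper subgroup of order `q = 5` -/
theorem not_dvd_1440 {G : Type*} [Group G] {r e q : ℕ} (hr : r.Prime) (hq : q = r ^ e) (h5 : q = 5) {X R : Subgroup G}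
    [Finite R] (hX : Nat.card X = q) (hR : IsPGroup r ↥R) (hle : X ≤ R) {v : G} (hv : v ∈ R) (hvX : v ∉ X) :
    ¬ Nat.card R ∣ 1440 := by
  have hr5 : r = 5 := by
    rw [h5] at hq
    have h1 : 5 ∣ r := by
      have : 5 ∣ r ^ e := hq ▸ dvd_rfl
      exact Nat.prime_five.dvd_of_dvd_pow this
    exact ((Nat.prime_dvd_prime_iff_eq Nat.prime_five hr).1 h1).symm
  subst hr5
  have := Fact.mk hr
  obtain ⟨n, hn⟩ := IsPGroup.iff_card.1 hR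
  have h1 : Nat.card X ∣ Nat.card R := Subgroup.card_dvd_of_le hle
  have hne : Nat.card X ≠ Nat.card R := by
    intro h
    have h2 : X = R := Subgroup.eq_of_le_of_card_ge hle h.ge
    exact hvX (h2 ▸ hv)
  rw [hX, h5, hn] at h1 hne
  have h2 : 2 ≤ n := by
    by_contra h
    have h3 : n = 0 ∨ n = 1 := by omega
    rcases h3 with rfl | rfl
    · norm_num at h1
    · exact hne (by norm_num)
  intro h
  rw [hn] at h
  have h3 : 5 ^ 2 ∣ 1440 := (pow_dvd_pow 5 h2).trans h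
  norm_num at h3

variable {K : Type} [Field K] [Fintype K] {q : ℕ} (hK : Fintype.card K = q ^ 3)
  {φ : K →+* K} (hφ : ∀ x, φ x = x ^ q)

theorem Cx_eq (A : Matrix.SpecialLinearGroup (Fin 2) (KD φ 0)) (τ : K ≃+* K) :
    Cx (MulAut.conj (PhiD hφ hK 0 A) * st q τ) = H911.TD.Fxo hK hφ A τ := by
  ext y
  rfl

/-- **`|R| ∤ 1440`** -/
theorem exists_R (r : ℕ) [Fact r.Prime] [CharP K r] (hq : IsPrimePow q) (h3 : q % 3 = 2) {τ : K ≃+* K}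
    (hτ : τ ^ 3 = 1) (hτ1 : τ ≠ 1) (h : q = 4 ∨ q = 5 ∨ q = 9) :
    ∃ R ≤ Cx (MulAut.conj (PhiD hφ hK 0 cZ) * st q τ), ¬ Nat.card R ∣ 1440 := by
  have h5 : q = 5 := by omega
  obtain ⟨v, hv, hvx, hv2⟩ := H442.TD.FThree.fthree hK hφ hq (by omega) hτ hτ1
  obtain ⟨n, hn0, hn⟩ := H27.Exc.exists_pow (r := r) three_pos hq hK
  have hfin : Finite CoxeterMatrix.G₂.Group := finiteW cs
  have hX := H911.TD.card_Xf hK hφ cZ hq hτ hτ1
  refine ⟨VJ cs isCartan (X φ q) {0} ⊓ Cx (MulAut.conj (PhiD hφ hK 0 cZ) * st q τ), inf_le_right, ?_⟩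
  refine not_dvd_1440 (X := X φ q ![1, 2] ⊓ H911.TD.Fxo hK hφ cZ τ) Fact.out hn h5 hX
    ((rgd' hK hφ r).isPGroup_Upos.to_le (inf_le_left.trans (VJ_le_U {0}))) (inf_le_inf ?_ le_rfl) ⟨hv, hvx⟩ ?_
  · exact X_le_V hK hφ 0 (by decide) (fun k => by fin_cases k <;> decide) ⟨1, by decide, by decide⟩
  · intro h6
    exact hv2 (RGD.le_Sup (S := {z | z = ![1, 2] ∨ z = ![1, 3] ∨ z = ![2, 3]}) (Or.inl rfl) h6.1)

end Cfsg.Agent.H922.TD
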