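import Cfsg.Agent.H922.TD.HFixB

/-!
# S3509, `³D₄(q)`, second class of triality automorphisms, `q ≡ 2 mod 3`: the fixed points of `x₀` in `L_J` act faithfully (helper922)

* `end_LJ` : an element of `L_J` acting trivially on `V_J / V2` is `1`;
* `indep` : `a ^ 2 - a b + b ^ 2 ≠ 0`;
* `hfix`.
-/

set_option autoImplicit false
set_option linter.unusedSectionVars false
set_option maxHeartbeats 400000

namespace Cfsg.Agent.H922.TD.HF

open CoxeterSystem Cfsg.Agent.ChevalleyStructure.CoxeterGeom Cfsg.Agent.Tits.Roots Cfsg.Agent.Tits.Core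
  Cfsg.Agent.Tits.Exchange Cfsg.Agent.Nodes.Reps Cfsg.Agent.Nodes.BNOf Cfsg.Agent.Nodes.StabComb
  Cfsg.Agent.Nodes.Bruhat Cfsg.Agent.Nodes.OppDec Cfsg.Agent.Nodes.LeviDec Cfsg.Agent.Nodes.RGDTwGen
  Cfsg.Agent.Nodes.RGDChev Cfsg.Agent.Nodes.RGDFold Cfsg.Agent.Nodes.RGDFoldSL
open Cfsg.Agent.KFacts.RgdOpp Cfsg.Agent.KFacts.RgdAut Cfsg.Agent.KFacts.RgdDiag Cfsg.Agent.KFacts.RgdRigid
  Cfsg.Agent.KFacts.RgdField Cfsg.Agent.KFacts.RgdTau Cfsg.Agent.KFacts.RgdNodes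
open Cfsg Cfsg.Lie Cfsg.Agent.ChevalleyStructure Cfsg.Agent.ChevalleyStructure.Elts
open Cfsg.Agent.ChevalleyStructure.SL2Hom (up lo mem_closure_SL2)
open Cfsg.Agent.KFacts.TwDFour.Out
open Cfsg.Agent.Nodes.RGDTwD4 Cfsg.Agent.Nodes.RGDTwNode.D4
open Cfsg.Agent.CpAut.RgdFix Cfsg.Agent.CpAut.RgdConj Cfsg.Agent.CpAut.RgdTwStd Cfsg.Agent.CpAut.RgdTwD4
open Cfsg.Agent.H28.FamFour (st_mul st_one)
open Cfsg.Agent.H866.D4Wf.Frame Cfsg.Agent.H866.D4Wf.SLThree Cfsg.Agent.H866.TD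
open Cfsg.Agent.H202.TD (n_conj_T ch_inv ch10)
open Cfsg.Agent.H911.TD (Fxo mem_Fxo xo xo_apply inc)

variable {K : Type} [Field K] [Fintype K] {q : ℕ} (hK : Fintype.card K = q ^ 3)
  {φ : K →+* K} (hφ : ∀ x, φ x = x ^ q)

/-- a torus element with trivial characters -/
theorem eq_one_of_chs {y : ↥(twistedD4 K q)} (hy : y ∈ T K q) (h0 : chD hφ hK 0 y = 1) (h1 : chD hφ hK 1 y = 1) :
    y = 1 := by
  have h6 := conj_eq_one_of_ch hK hφ hy (by
    intro i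
    have hi : i = 0 ∨ i = 1 := by fin_cases i <;> simp
    rcases hi with rfl | rfl
    · exact h0
    · exact h1)
  apply eq_one_of_center hK hφ
  intro g
  have h7 : MulAut.conj y g = g := by rw [h6]; rfl
  rw [MulAut.conj_apply] at h7
  exact mul_inv_eq_iff_eq_mul.1 h7

/-- an element of `L_J` acting trivially on `V_J / V2` -/
theorem end_LJ (hq : IsPrimePow q) (h3 : q % 3 = 2) {y : ↥(twistedD4 K q)}
    (hy : y ∈ LJ cs isCartan (T K q) (X φ q) {0}) (h : ∀ w a b, R hK hφ w a b → R hK hφ (y * w * y⁻¹) a b) : y = 1 := by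
  obtain ⟨M, t, ht, rfl⟩ := exists_LJ hK hφ hy
  have hT1 := ch_ne_zero hK hφ ht 1
  obtain ⟨g1, hg1⟩ : ∃ g, g = inc hK hφ (chD hφ hK 0 t) * chD hφ hK 1 t := ⟨_, rfl⟩
  have hg10 : g1 ≠ 0 := by
    rw [hg1]
    refine mul_ne_zero (fun h => ch_ne_zero hK hφ ht 0 ((inc hK hφ).injective (by rw [h, map_zero]))) hT1
  by_cases hM : M.1 1 0 = 0
  · obtain ⟨hd, e⟩ := eq_of_zero hM
    obtain ⟨s, hs⟩ : ∃ s, s = M.1 0 1 * M.1 0 0 := ⟨_, rfl⟩
    obtain ⟨t', ht'⟩ : ∃ t', t' = PhiD hφ hK 0 (hS (M.1 0 0)) * t := ⟨_, rfl⟩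
    have htT : t' ∈ T K q := by rw [ht']; exact mul_mem (PhiD_hS hφ hK 0 _ hd) ht
    have ey : PhiD hφ hK 0 M * t = PhiD hφ hK 0 (up s) * t' := by
      rw [ht', hs, ← mul_assoc, ← map_mul, ← e]
    rw [ey] at h ⊢
    have hconj : ∀ w, PhiD hφ hK 0 (up s) * t' * w * (PhiD hφ hK 0 (up s) * t')⁻¹ =
        PhiD hφ hK 0 (up s) * (t' * w * t'⁻¹) * (PhiD hφ hK 0 (up s))⁻¹ := fun w => by group
    -- `B 1`
    have k1 := R_up hK hφ hq h3 s (R_T hK hφ htT (R_B hK hφ 1)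
      (c := inc hK hφ (chD hφ hK 0 t') * chD hφ hK 1 t') rfl)
    rw [← hconj] at k1
    obtain ⟨k2, k3⟩ := R_inj hK hφ k1 (h _ _ _ (R_B hK hφ 1))
    rw [mul_one] at k2
    rw [mul_one, mul_zero, add_zero, k2, mul_one] at k3
    have hs0 : s = 0 := (inc hK hφ).injective (by rw [k3, map_zero])
    -- `C 1`
    have k4 := R_up hK hφ hq h3 s (R_T hK hφ htT (R_C hK hφ 1)
      (c := inc hK hφ (chD hφ hK 0 t') * chD hφ hK 1 t') rfl)
    rw [← hconj] at k4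
    obtain ⟨-, k5⟩ := R_inj hK hφ k4 (h _ _ _ (R_C hK hφ 1))
    rw [mul_zero, mul_zero, zero_add, k2, mul_one, mul_one] at k5
    have k6 : chD hφ hK 0 t' = 1 := (inc hK hφ).injective (by rw [k5, map_one])
    have k7 := eq_one_of_chs hK hφ htT k6 k2
    rw [k7, mul_one, hs0]
    exact (coordD hφ hK 0).zero
  · exfalso
    have hd : -(M.1 1 0)⁻¹ ≠ 0 := neg_ne_zero.2 (inv_ne_zero hM)
    obtain ⟨d, hdd⟩ : ∃ d, d = -(M.1 1 0)⁻¹ := ⟨_, rfl⟩
    have e := Cfsg.Agent.KFacts.TwESix.NodeCoord.eq_of_ne_zero hM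
    rw [← hdd] at e hd
    obtain ⟨x, hx⟩ : ∃ x, x = M.1 0 0 / M.1 1 0 := ⟨_, rfl⟩
    obtain ⟨x', hx'⟩ : ∃ x', x' = M.1 1 1 / M.1 1 0 := ⟨_, rfl⟩
    rw [← hx, ← hx'] at e
    have hP := PhiD_hS hφ hK 0 _ hd
    have ey : PhiD hφ hK 0 M = PhiD hφ hK 0 (up x) * (PhiD hφ hK 0 (hS d) * n hφ 0) * PhiD hφ hK 0 (up x') := by
      rw [e, map_mul, map_mul, map_mul, PhiD_wS]
    have hconj : ∀ w, PhiD hφ hK 0 M * t * w * (PhiD hφ hK 0 M * t)⁻¹ =
        PhiD hφ hK 0 (up x) * (PhiD hφ hK 0 (hS d) * (n hφ 0 * (PhiD hφ hK 0 (up x') * (t * w * t⁻¹) *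
          (PhiD hφ hK 0 (up x'))⁻¹) * (n hφ 0)⁻¹) * (PhiD hφ hK 0 (hS d))⁻¹) * (PhiD hφ hK 0 (up x))⁻¹ := fun w => by
      rw [ey]
      group
    have k1 := R_up hK hφ hq h3 x (R_T hK hφ hP (R_n0 hK hφ (R_up hK hφ hq h3 x' (R_T hK hφ ht (R_C hK hφ 1)
      (c := g1) (by rw [hg1]; rfl))))
      (c := inc hK hφ (chD hφ hK 0 (PhiD hφ hK 0 (hS d))) * chD hφ hK 1 (PhiD hφ hK 0 (hS d))) rfl)
    rw [← hconj] at k1
    obtain ⟨k2, -⟩ := R_inj hK hφ k1 (h _ _ _ (R_C hK hφ 1))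
    rw [mul_zero, mul_zero, zero_add, mul_one] at k2
    exact mul_ne_zero (ch_ne_zero hK hφ hP 1) (neg_ne_zero.2 hg10) k2

include hK in
/-- no primitive cube roots of unity in `F_{q³}` -/
theorem indep (hq : IsPrimePow q) (h3 : q % 3 = 2) {a b : K} (h : a ^ 2 - a * b + b ^ 2 = 0) : a = 0 ∧ b = 0 := by
  by_cases hb : b = 0
  · subst hb
    refine ⟨?_, rfl⟩
    have : a ^ 2 = 0 := by simpa using h
    exact pow_eq_zero_iff (two_ne_zero) |>.1 this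
  exfalso
  have ha : a ≠ 0 := by
    rintro rfl
    apply hb
    have : b ^ 2 = 0 := by simpa using h
    exact pow_eq_zero_iff (two_ne_zero) |>.1 this
  -- `x = - a / b` has `x ^ 3 = 1`
  have h1 : (-a / b) ^ 3 = 1 := by
    have h2 : (-a) ^ 3 = b ^ 3 := by
      linear_combination (-a - b) * h
    rw [div_pow, h2, div_self (pow_ne_zero 3 hb)]
  have hx0 : -a / b ≠ 0 := div_ne_zero (neg_ne_zero.2 ha) hb
  have h2 : orderOf (Units.mk0 _ hx0) ∣ 3 := by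
    apply orderOf_dvd_of_pow_eq_one
    ext
    rw [Units.val_pow_eq_pow_val, Units.val_mk0, h1, Units.val_one]
  have h4 : orderOf (Units.mk0 _ hx0) ∣ q ^ 3 - 1 := by
    have := orderOf_dvd_natCard (Units.mk0 _ hx0)
    rwa [Nat.card_units, Nat.card_eq_fintype_card, hK] at this
  have h5 : ¬ 3 ∣ q ^ 3 - 1 := by
    have h6 : q ^ 3 % 3 = 2 := by
      rw [Nat.pow_mod, h3]
    omega
  have h6 : orderOf (Units.mk0 _ hx0) = 1 := by
    rcases (Nat.dvd_prime Nat.prime_three).1 h2 with h7 | h7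
    · exact h7
    · rw [h7] at h4
      exact absurd h4 h5
  rw [orderOf_eq_one_iff] at h6
  have h7 : -a / b = 1 := congrArg Units.val h6
  have h8 : a = -b := by
    rw [div_eq_one_iff_eq hb] at h7
    rw [← h7, neg_neg]
  rw [h8] at h
  have h9 : (3 : K) * b ^ 2 = 0 := by linear_combination h
  have h10 : (3 : K) ≠ 0 := by
    intro h11
    obtain ⟨r, hr⟩ := CharP.exists K
    have : Fact r.Prime := ⟨CharP.char_is_prime K r⟩
    have h12 : r ∣ 3 := (CharP.cast_eq_zero_iff K r 3).1 (by exact_mod_cast h11)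
    have h13 : r = 3 := (Nat.prime_dvd_prime_iff_eq Fact.out Nat.prime_three).1 h12
    obtain ⟨n, hn0, hn⟩ := H27.Exc.exists_pow (r := r) three_pos hq hK
    have : 3 ∣ q := by rw [hn, h13]; exact dvd_pow_self 3 hn0.ne'
    omega
  exact (mul_ne_zero h10 (pow_ne_zero 2 hb)) h9

/-- **The fixed points of `x₀` in `L_J` act faithfully on the fixed points in `V_J`.** -/
theorem hfix (hq : IsPrimePow q) (h3 : q % 3 = 2) {τ : K ≃+* K} (hτ : τ ^ 3 = 1) (hτ1 : τ ≠ 1)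
    {y : ↥(twistedD4 K q)} (_hy : y ∈ Fxo hK hφ cZ τ) (hL : y ∈ LJ cs isCartan (T K q) (X φ q) {0})
    (hv : ∀ v ∈ VJ cs isCartan (X φ q) {0}, v ∈ Fxo hK hφ cZ τ → y * v = v * y) : y = 1 := by
  obtain ⟨v, hvV, hvx, hv2⟩ := H442.TD.FThree.fthree hK hφ hq (by omega) hτ hτ1
  have hset : ({z | z = ![1, 2] ∨ z = ![1, 3] ∨ z = ![2, 3]} : Set (Fin 2 → ℤ)) = {![1, 2], ![1, 3], ![2, 3]} := by
    ext z
    simp
  rw [hset] at hv2
  obtain ⟨a, b, hab⟩ := R_exists hK hφ hvV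
  -- the element `c`
  obtain ⟨c, hc⟩ : ∃ c, c = PhiD hφ hK 0 cZ := ⟨_, rfl⟩
  have hcx : xo hK hφ cZ τ c = c := by
    rw [xo_apply, hc, st_Phi_zero hK hφ hq hτ, mul_inv_cancel_right]
  have hcV : c * v * c⁻¹ ∈ VJ cs isCartan (X φ q) {0} := by
    rw [hc]
    exact (Subgroup.mem_normalizer_iff.1 (L_le_normalizer_V hK hφ 0 (show PhiD hφ hK 0 cZ ∈ (PhiD hφ hK 0).range from
      ⟨cZ, rfl⟩)) _).1 hvV
  have hcvx : c * v * c⁻¹ ∈ Fxo hK hφ cZ τ := by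
    rw [mem_Fxo, map_mul, map_mul, map_inv, hcx]
    have : xo hK hφ cZ τ v = v := hvx
    rw [this]
  have h1 := hv v hvV hvx
  have h2 := hv _ hcV hcvx
  obtain ⟨M, t, ht, e⟩ := exists_LJ hK hφ hL
  have hlin : Lin hK hφ y := by
    rw [e]
    exact (lin_Phi hK hφ hq h3 M).mul hK hφ (lin_T hK hφ ht)
  obtain ⟨x, z, x', z', hl⟩ := hlin
  have k1 := hl _ _ _ hab
  rw [h1, mul_inv_cancel_right] at k1
  obtain ⟨k2, k3⟩ := R_inj hK hφ k1 hab
  have hab' := R_c hK hφ hab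
  rw [← hc] at hab'
  have k4 := hl _ _ _ hab'
  rw [h2, mul_inv_cancel_right] at k4
  obtain ⟨k5, k6⟩ := R_inj hK hφ k4 hab'
  have hD : a ^ 2 - a * b + b ^ 2 ≠ 0 := by
    intro h
    have h4 : (a : K) ^ 2 - (a : K) * (b : K) + (b : K) ^ 2 = 0 := congrArg (fun u : KD φ 1 => (u : K)) h
    obtain ⟨h5, h6⟩ := indep hK hq h3 h4
    have h7 : a = 0 := Subtype.ext h5
    have h8 : b = 0 := Subtype.ext h6
    rw [h7, h8] at hab
    unfold R at hab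
    rw [B_zero, C_zero, one_mul, inv_one, one_mul] at hab
    exact hv2 hab
  have ex : x = 1 := by
    apply mul_right_cancel₀ hD
    linear_combination a * k2 + b * k5
  have ez : z = 0 := by
    apply mul_right_cancel₀ hD
    linear_combination (b - a) * k2 - a * k5
  have ex' : x' = 0 := by
    apply mul_right_cancel₀ hD
    linear_combination a * k3 + b * k6
  have ez' : z' = 1 := by
    apply mul_right_cancel₀ hD
    linear_combination (b - a) * k3 - a * k6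
  refine end_LJ hK hφ hq h3 hL fun w a' b' hw => ?_
  have := hl w a' b' hw
  rw [ex, ez, ex', ez', one_mul, zero_mul, add_zero, zero_mul, one_mul, zero_add] at this
  exact this

end Cfsg.Agent.H922.TD.HF
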