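import Cfsg.Agent.H878.TD.Root
import Cfsg.Agent.Cit.HexD4

/-!
# `G₂(q) ≤ ³D₄(q)` and the rank one groups of the hexagon (helper922, S2465)
-/

set_option autoImplicit false

open Cfsg Cfsg.Lie

namespace Cfsg.Agent.H922.TD

open Cfsg.Agent.ChevalleyStructure Cfsg.Agent.ChevalleyStructure.D4NConj
  Cfsg.Agent.SplitTwo Cfsg.Agent.TitsThree.RankTwoZ Cfsg.Agent.Lib.SL2Mat Cfsg.Agent.Cit.HexBase
  Cfsg.Agent.Cit.HexD4
open Cfsg.Agent.Lib.SL2Mat (up lo exists_up_lo)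

/-- **`G₂(q) ≤ ³D₄(q)`** contains the `F_q`-points of the two rank one groups. -/
theorem exists_gtwo_hex {K : Type} [Field K] [Fintype K] {q : ℕ} (hq : IsPrimePow q)
    (hK : Fintype.card K = q ^ 3) {σ : K ≃+* K} (hσ : ∀ x, σ x = x ^ q) :
    ∃ (k : Type) (_ : Field k) (_ : Fintype k) (M : Subgroup ↥(twistedD4 K q)), Fintype.card k = q ∧
      Nonempty (↥M ≃* ↥(chevG2.group k)) ∧ (∀ x, (d4 hq hK hσ).pa x ∈ M) ∧
      (∀ x : SL2 ↥(fx σ), (d4 hq hK hσ).pb (Matrix.SpecialLinearGroup.map (fx σ).subtype x) ∈ M) := by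
  let φ : K →+* K := (σ : K →+* K)
  have hφ : ∀ x, φ x = x ^ q := hσ
  let S : Set (K →+* K) := {RingHom.id K, φ}
  have hid : RingHom.id K ∈ S := Or.inl rfl
  have hmem : ∀ t : K, t ∈ CpAutTri.Gen.kF S ↔ φ t = t := by
    intro t
    rw [CpAutTri.Gen.mem_kF]
    constructor
    · intro h
      exact h φ (Or.inr rfl)
    · rintro h ψ (rfl | hψ)
      · rfl
      · rw [Set.mem_singleton_iff.1 hψ]
        exact h
  have hXX : ∀ t : K, φ t = t → CpAutTri.Gen.X t = D4Fixed.X φ t := by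
    intro t h1
    rw [CpAutTri.Gen.X_eq]
    unfold D4Fixed.X
    rw [h1, h1]
    rfl
  have hYY : ∀ t : K, φ t = t → CpAutTri.Gen.Y t = D4Fixed.Y φ t := by
    intro t h1
    rw [CpAutTri.Gen.Y_eq]
    unfold D4Fixed.Y
    rw [h1, h1]
    rfl
  have hle : CpAutTri.Nor.DS S ≤ twistedD4 K q := by
    refine CpAutTri.Gen.DS_le hid ?_ ?_ ?_ ?_
    · intro t ht
      have h1 := (hmem t).1 ht
      rw [hφ] at h1
      exact D4Fixed.x14_mem h1
    · intro t ht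
      have h1 := (hmem t).1 ht
      rw [hφ] at h1
      exact D4Fixed.x9_mem h1
    · intro t ht
      rw [hXX t ((hmem t).1 ht)]
      exact D4Fixed.X_mem hφ t
    · intro t ht
      rw [hYY t ((hmem t).1 ht)]
      exact D4Fixed.Y_mem hφ t
  obtain ⟨e⟩ := CpAutTri.Hom.equivG2 hid (by
    intro g hg h
    have hf : g ∈ D4Fixed.fix (RingHom.id K) := CpAutTri.Hom.DS_le_fix hid hg
    refine H207.TriFix.rho3_inj (CpAutTri.Nor.DS_le_G _ hg) hf ?_
    apply Units.ext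
    rw [CpAutTri.Hom.coe_rho3]
    show CpAutTri.Iota.J K * ((g : Matrix chevD4.Idx chevD4.Idx K) * CpAutTri.Iota.I K) = 1
    rw [h, CpAutTri.Iota.J_mul_I])
  classical
  have hfin : Fintype ↥(CpAutTri.Gen.kF S) := Fintype.ofFinite _
  have hcard : Fintype.card ↥(CpAutTri.Gen.kF S) = q := by
    rw [← Nat.card_eq_fintype_card, ← D4U.card_fix_field hq.one_lt hK hφ]
    exact Nat.card_congr (Equiv.subtypeEquivRight hmem)
  refine ⟨_, inferInstance, hfin, (CpAutTri.Nor.DS S).subgroupOf (twistedD4 K q), hcard,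
    ⟨(Subgroup.subgroupOfEquivOfLe hle).trans e⟩, ?_, ?_⟩
  · intro x
    rw [Subgroup.mem_subgroupOf]
    change pa0 (fx σ).subtype x ∈ _
    obtain ⟨a, b, c, d, rfl⟩ := exists_up_lo x
    have h1 : ∀ t : ↥(fx σ), (t : K) ∈ CpAutTri.Gen.kF S := fun t => (hmem t).2 t.2
    simp only [map_mul, pa0_up, pa0_lo]
    exact mul_mem (mul_mem (mul_mem (CpAutTri.Gen.x14_mem (h1 _)) (CpAutTri.Gen.x9_mem (h1 _)))
      (CpAutTri.Gen.x14_mem (h1 _))) (CpAutTri.Gen.x9_mem (h1 _))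
  · intro x
    rw [Subgroup.mem_subgroupOf]
    change pb0 (σ : K →+* K) (Matrix.SpecialLinearGroup.map (fx σ).subtype x) ∈ _
    obtain ⟨a, b, c, d, rfl⟩ := exists_up_lo x
    have h1 : ∀ t : ↥(fx σ), (t : K) ∈ CpAutTri.Gen.kF S := fun t => (hmem t).2 t.2
    have h2 : ∀ t : ↥(fx σ), Matrix.SpecialLinearGroup.map (fx σ).subtype (up t) = up (t : K) :=
      fun t => Cfsg.Agent.GH.LowRankD4.map_up _ t
    have h3 : ∀ t : ↥(fx σ), Matrix.SpecialLinearGroup.map (fx σ).subtype (lo t) = lo (t : K) :=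
      fun t => Cfsg.Agent.GH.LowRankD4.map_lo _ t
    simp only [map_mul, h2, h3, pb0_up, pb0_lo]
    have h4 : ∀ t : ↥(fx σ), D4Fixed.X (σ : K →+* K) (t : K) ∈ CpAutTri.Nor.DS S := fun t => by
      rw [← hXX _ t.2]
      exact CpAutTri.Gen.X_mem (h1 t)
    have h5 : ∀ t : ↥(fx σ), D4Fixed.Y (σ : K →+* K) (t : K) ∈ CpAutTri.Nor.DS S := fun t => by
      rw [← hYY _ t.2]
      exact CpAutTri.Gen.Y_mem (h1 t)
    exact mul_mem (mul_mem (mul_mem (h4 _) (h5 _)) (h4 _)) (h5 _)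

end Cfsg.Agent.H922.TD
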