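import Cfsg.Agent.H922.TD.Final
import Cfsg.Agent.H922.TD.GTwoIn
import Cfsg.Agent.H983.Pw.GTwoThree

/-!
# `³D₄(3)`: every element is a product of two elements of order prime to 6, from the parabolic box (helper922, S2465)
-/

set_option autoImplicit false

open Cfsg Cfsg.Lie

namespace Cfsg.Agent.H922.TD

open Cfsg.Agent.ChevalleyStructure Cfsg.Agent.ChevalleyStructure.D4NConj
  Cfsg.Agent.SplitTwo Cfsg.Agent.TitsThree.RankTwoZ Cfsg.Agent.Lib.SL2Mat Cfsg.Agent.Cit.HexBase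
  Cfsg.Agent.Cit.HexD4 Cfsg.Agent.H78.Pw Cfsg.Agent.ChevalleyStructure.D4Twisted
  Cfsg.Agent.Hexagon.TwD4RGD Cfsg.Agent.Hexagon.TwD4Par Cfsg.Agent.Hexagon.TwD4Rel Cfsg.Agent.ChevalleyStructure.D4RGD

/-- **`³D₄(3)`** from the box on the centralizers of the elements of order 3. -/
theorem six_of_par {K : Type} [Field K] [Fintype K] (hK : Fintype.card K = 3 ^ 3)
    (hpar : ∀ u : ↥(twistedD4 K 3), orderOf u = 3 → ∃ (P : Subgroup ↥(twistedD4 K 3)) (a : ↥(twistedD4 K 3)),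
      Subgroup.centralizer ({u} : Set ↥(twistedD4 K 3)) ≤ P ∧ (Nat.card P = 110539728 ∨ Nat.card P = 773778096) ∧
      (∀ t : ↥(twistedD4 K 3), (t : GL chevD4.Idx K) ∈ chevD4.diagonalSubgroup K → a * t * a⁻¹ ∈ P)) :
    All 6 ↥(twistedD4 K 3) := by
  have hq : IsPrimePow 3 := Nat.prime_three.isPrimePow
  obtain ⟨φ, hφ⟩ := Cfsg.Agent.ChevalleyStructure.D4Fixed.exists_frob hq hK
  have hb : Function.Bijective φ := by
    rw [Fintype.bijective_iff_injective_and_card]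
    exact ⟨RingHom.injective (φ : K →+* K), rfl⟩
  obtain ⟨σ, hσ⟩ : ∃ σ : K ≃+* K, ∀ x, σ x = x ^ 3 := ⟨RingEquiv.ofBijective φ hb, hφ⟩
  obtain ⟨k, _, _, M, hk, ⟨e⟩, ha, hb'⟩ := exists_gtwo_hex hq hK hσ
  refine all_six_of hK hσ (d4 hq hK hσ) ?_ hpar (M := M) ?_ ha hb'
  · intro s hs
    change pb0 (σ : K →+* K) (dg s hs) ∈ _
    rw [pb0_dg]
    exact hb_mem_diagonal _ hs
  · exact (H983.Pw.six_g2_three hk).congr e.symm

end Cfsg.Agent.H922.TD
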