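import Cfsg.Agent.H922.TD.Hex

/-!
# Groups of type `³D₄`: orders (helper922, S2465)

* `card_cent_y` : `|C(y)| ≤ f³ · 14 · (|E| f) · f³`, `f` the order of the fixed field;
* `card_pos` : `|U| = (|E| f)³`.
-/

set_option autoImplicit false

namespace Cfsg.Agent.H922.TD

open Cfsg.Agent.SplitTwo Cfsg.Agent.TitsThree.RankTwoZ Cfsg.Agent.Lib.SL2Mat Cfsg.Agent.Cit.HexBase
  Cfsg.Agent.TitsThree.RankTwoIdx Cfsg.Agent.TitsThree.RankTwoRGD Cfsg.Agent.Cit.HexBase.HexGrp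

universe u

variable {E : Type*} [Field E] {σ : E ≃+* E} {L : Type u} [Group L] (c : HexGrp σ L)

/-- **The order of the positive part.** -/
theorem card_pos : Nat.card ↥(Sg c.X Pos) = (Nat.card E * Nat.card ↥(fx σ)) ^ 3 := by
  have m : ∀ {k : ZMod (2 * 6)}, k ∈ Pos → ∀ {g : L}, g ∈ c.X k → g ∈ Sg c.X Pos := fun hk g hg => X_le_Sg hk hg
  let F : (↥(fx σ) × E × E) × (E × ↥(fx σ) × ↥(fx σ)) → ↥(Sg c.X Pos) := fun p =>
    ⟨c.x6 p.1.1 * c.x1 p.1.2.1 * c.x5 p.1.2.2 * c.x3 p.2.1 * c.x2 p.2.2.1 * c.x4 p.2.2.2,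
      mul_mem (mul_mem (mul_mem (mul_mem (mul_mem (m (by decide) (c.mem6 p.1.1.2)) (m (by decide) (c.mem1 _)))
        (m (by decide) (c.mem5 _))) (m (by decide) (c.mem3 _))) (m (by decide) (c.mem2 p.2.2.1.2)))
        (m (by decide) (c.mem4 p.2.2.2.2))⟩
  have hF : Function.Bijective F := by
    constructor
    · rintro ⟨⟨a, b, d⟩, e, f, t⟩ ⟨⟨a', b', d'⟩, e', f', t'⟩ h
      obtain ⟨h1, h2, h3, h4, h5, h6⟩ := uniq' c a.2 a'.2 f.2 f'.2 t.2 t'.2 (congrArg Subtype.val h)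
      have k2 : b = b' := h2
      have k3 : d = d' := h3
      have k4 : e = e' := h4
      rw [Subtype.ext h1, Subtype.ext h5, Subtype.ext h6, k2, k3, k4]
    · rintro ⟨g, hg⟩
      obtain ⟨a, b, d, e, f, t, ha, hf, ht, rfl⟩ := exists_prod' c hg
      exact ⟨((⟨a, ha⟩, b, d), e, ⟨f, hf⟩, ⟨t, ht⟩), rfl⟩
  rw [← Nat.card_eq_of_bijective F hF]
  simp only [Nat.card_prod]
  ring

/-- **The order of the centralizer of `y`.** -/
theorem card_cent_y [Finite E] (h2 : (2 : E) ≠ 0) {y : L} {w : E} (hy : c.Act y w 1) (hn : nrm σ w = 1) (hw : w ≠ 1) :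
    Nat.card ↥(Subgroup.centralizer ({y} : Set L)) ≤
      Nat.card ↥(fx σ) ^ 3 * 14 * (Nat.card E * Nat.card ↥(fx σ)) * Nat.card ↥(fx σ) ^ 3 := by
  classical
  let F : (↥(fx σ) × ↥(fx σ) × ↥(fx σ)) × (Bool × Fin 7) × (E × ↥(fx σ)) × (↥(fx σ) × ↥(fx σ) × ↥(fx σ)) → L :=
    fun p => c.x2 p.1.1 * c.x4 p.1.2.1 * c.x6 p.1.2.2 * (if p.2.1.1 then alt c.n1 c.n6 p.2.1.2 else alt c.n6 c.n1 p.2.1.2) *
      (if h : p.2.2.1.1 ≠ 0 ∧ p.2.2.1.2 ≠ 0 then c.pb (dg p.2.2.1.1 h.1) * c.pa (dg p.2.2.1.2 h.2) else 1) *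
      (c.x2 p.2.2.2.1 * c.x4 p.2.2.2.2.1 * c.x6 p.2.2.2.2.2)
  have hF : ∀ g : ↥(Subgroup.centralizer ({y} : Set L)), ∃ p, F p = g := by
    rintro ⟨g, hg⟩
    have hg' : g * y = y * g := Subgroup.mem_centralizer_singleton_iff.1 hg
    obtain ⟨a, b, d, a', b', d', n, f, hnf, h, hh, e, -⟩ := form_y c hy hn hw h2 hg'
    obtain ⟨s, hs, t, ht, rfl⟩ := c.exists_of_mem_T0 h2 hh
    obtain ⟨r, hr, ⟨rfl, -⟩ | ⟨rfl, -⟩⟩ := hnf
    · refine ⟨((a, b, d), (true, ⟨r, by omega⟩), (s, t), (a', b', d')), ?_⟩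
      show c.x2 a * c.x4 b * c.x6 d * (if true = true then alt c.n1 c.n6 r else _) *
        (if h : s ≠ 0 ∧ t ≠ 0 then c.pb (dg s h.1) * c.pa (dg t h.2) else 1) * _ = g
      rw [if_pos rfl, dif_pos ⟨hs, ht⟩, e]
    · refine ⟨((a, b, d), (false, ⟨r, by omega⟩), (s, t), (a', b', d')), ?_⟩
      show c.x2 a * c.x4 b * c.x6 d * (if false = true then _ else alt c.n6 c.n1 r) *
        (if h : s ≠ 0 ∧ t ≠ 0 then c.pb (dg s h.1) * c.pa (dg t h.2) else 1) * _ = g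
      rw [if_neg (by simp), dif_pos ⟨hs, ht⟩, e]
  choose G hG using hF
  have hinj : Function.Injective G := by
    intro x x' h
    apply Subtype.ext
    rw [← hG x, ← hG x', h]
  refine (Nat.card_le_card_of_injective G hinj).trans ?_
  simp only [Nat.card_prod, Nat.card_eq_fintype_card (α := Bool), Nat.card_eq_fintype_card (α := Fin 7),
    Fintype.card_bool, Fintype.card_fin]
  apply le_of_eq
  ring

end Cfsg.Agent.H922.TD
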