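import Cfsg.Agent.H922.TD.Sieve
import Cfsg.Agent.H922.TD.HexB
import Cfsg.Agent.H874.Pw.D4Cent
import Cfsg.Agent.Cit.HexD4
import Cfsg.Agent.H121.TwD4

/-!
# `³D₄(3)`: every element is a product of two elements of order prime to 6 (helper922, S2465)
-/

set_option autoImplicit false

open Cfsg Cfsg.Lie

namespace Cfsg.Agent.H922.TD

open Cfsg.Agent.SplitTwo Cfsg.Agent.TitsThree.RankTwoZ Cfsg.Agent.Lib.SL2Mat Cfsg.Agent.Cit.HexBase
  Cfsg.Agent.TitsThree.RankTwoIdx Cfsg.Agent.TitsThree.RankTwoRGD Cfsg.Agent.Cit.HexBase.HexGrp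
  Cfsg.Agent.ChevalleyStructure Cfsg.Agent.H78.Pw

/-- two elements of order `p` of a subgroup of order not divisible by `p ^ 2` -/
theorem conj_of_prime {G : Type*} [Group G] [Finite G] {p : ℕ} [hp : Fact p.Prime] (P : Subgroup G)
    (h2 : ¬ p ^ 2 ∣ Nat.card P) {x y : G} (hx : x ∈ P) (hy : y ∈ P) (ox : orderOf x = p) (oy : orderOf y = p) :
    ∃ b : G, b * x * b⁻¹ ∈ Subgroup.zpowers y := by
  have key : ∀ z : P, orderOf z = p → ∃ S : Sylow p P, (S : Subgroup P) = Subgroup.zpowers z := by
    intro z hz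
    have h1 : IsPGroup p (Subgroup.zpowers z) := IsPGroup.of_card (n := 1) (by rw [Nat.card_zpowers, hz, pow_one])
    obtain ⟨S, hS⟩ := h1.exists_le_sylow
    refine ⟨S, ?_⟩
    symm
    apply Subgroup.eq_of_le_of_card_ge hS
    obtain ⟨n, hn⟩ := IsPGroup.iff_card.1 S.isPGroup'
    have h3 : n < 2 := by
      by_contra hc
      apply h2
      refine (pow_dvd_pow p (not_lt.1 hc)).trans ?_
      rw [← hn]
      exact Subgroup.card_subgroup_dvd_card _
    rw [Nat.card_zpowers, hz, hn]
    calc p ^ n ≤ p ^ 1 := Nat.pow_le_pow_right hp.out.pos (by omega)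
      _ = p := pow_one p
  obtain ⟨S, hS⟩ := key ⟨x, hx⟩ (by rw [← Subgroup.orderOf_coe]; exact ox)
  obtain ⟨T, hT⟩ := key ⟨y, hy⟩ (by rw [← Subgroup.orderOf_coe]; exact oy)
  obtain ⟨b, hb⟩ := MulAction.exists_smul_eq P S T
  refine ⟨b, ?_⟩
  have h1 : b * (⟨x, hx⟩ : P) * b⁻¹ ∈ (T : Subgroup P) := by
    rw [← hb, Sylow.coe_subgroup_smul]
    exact Subgroup.smul_mem_pointwise_smul _ _ _ (by rw [hS]; exact Subgroup.mem_zpowers _)
  rw [hT] at h1
  obtain ⟨k, hk⟩ := Subgroup.mem_zpowers_iff.1 h1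
  exact Subgroup.mem_zpowers_iff.2 ⟨k, congrArg Subtype.val hk⟩

/-- a subgroup whose order is divisible by the order of a Sylow subgroup contains a conjugate of every `p`-subgroup -/
theorem conj_of_sylow {G : Type*} [Group G] [Finite G] {p n : ℕ} [hp : Fact p.Prime] (C U : Subgroup G)
    (hn : ¬ p ^ (n + 1) ∣ Nat.card G) (hC : p ^ n ∣ Nat.card C) (hU : Nat.card U = p ^ n) :
    ∃ b : G, ∀ u ∈ U, b * u * b⁻¹ ∈ C := by
  obtain ⟨S, hS⟩ := Sylow.exists_subgroup_card_pow_prime p hC
  have hcS : Nat.card (S.map C.subtype) = p ^ n := by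
    rw [Nat.card_congr (Subgroup.equivMapOfInjective S C.subtype C.subtype_injective).symm.toEquiv, hS]
  have key : ∀ V : Subgroup G, Nat.card V = p ^ n → ∃ T : Sylow p G, (T : Subgroup G) = V := by
    intro V hV
    obtain ⟨T, hT⟩ := (IsPGroup.of_card hV).exists_le_sylow
    refine ⟨T, ?_⟩
    symm
    apply Subgroup.eq_of_le_of_card_ge hT
    obtain ⟨m, hm⟩ := IsPGroup.iff_card.1 T.isPGroup'
    have h3 : m < n + 1 := by
      by_contra hc
      apply hn
      refine (pow_dvd_pow p (not_lt.1 hc)).trans ?_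
      rw [← hm]
      exact Subgroup.card_subgroup_dvd_card _
    rw [hV, hm]
    exact Nat.pow_le_pow_right hp.out.pos (by omega)
  obtain ⟨T, hT⟩ := key U hU
  obtain ⟨T', hT'⟩ := key _ hcS
  obtain ⟨b, hb⟩ := MulAction.exists_smul_eq G T T'
  refine ⟨b, fun u hu => ?_⟩
  have h1 : b * u * b⁻¹ ∈ (T' : Subgroup G) := by
    rw [← hb, Sylow.coe_subgroup_smul]
    exact Subgroup.smul_mem_pointwise_smul _ _ _ (by rw [hT]; exact hu)
  rw [hT'] at h1
  obtain ⟨s, -, hs⟩ := h1
  rw [← hs]
  exact s.2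

theorem exists_prim {K : Type*} [Field K] [Fintype K] (hK : Fintype.card K = 3 ^ 3) : ∃ s : K, IsPrimitiveRoot s 13 := by
  have : Fact (Nat.Prime 13) := ⟨by norm_num⟩
  obtain ⟨z, hz⟩ := exists_prime_orderOf_dvd_card' (G := Kˣ) 13 (by
    rw [Nat.card_units, Nat.card_eq_fintype_card, hK]
    norm_num)
  refine ⟨z, ?_⟩
  rw [IsPrimitiveRoot.coe_units_iff, ← hz]
  exact IsPrimitiveRoot.orderOf z

/-! ### small identities in a group -/

theorem gi1 {G : Type*} [Group G] {a b v z : G} (h : a * z * a⁻¹ = b * v * b⁻¹) :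
    z = a⁻¹ * b * v * (a⁻¹ * b)⁻¹ := by
  calc z = a⁻¹ * (a * z * a⁻¹) * a := by group
    _ = a⁻¹ * (b * v * b⁻¹) * a := by rw [h]
    _ = _ := by group

theorem gi2 {G : Type*} [Group G] {b g v : G} (h : g * v = v * g) :
    b * g * b⁻¹ * (b * v * b⁻¹) = b * v * b⁻¹ * (b * g * b⁻¹) := by
  calc b * g * b⁻¹ * (b * v * b⁻¹) = b * (g * v) * b⁻¹ := by group
    _ = b * (v * g) * b⁻¹ := by rw [h]
    _ = _ := by group

theorem gi3 {G : Type*} [Group G] {b g x : G} (h : b * x * b⁻¹ * g = g * (b * x * b⁻¹)) :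
    b⁻¹ * g * b * x = x * (b⁻¹ * g * b) := by
  calc b⁻¹ * g * b * x = b⁻¹ * (g * (b * x * b⁻¹)) * b := by group
    _ = b⁻¹ * (b * x * b⁻¹ * g) * b := by rw [h]
    _ = _ := by group

theorem gi4 {G : Type*} [Group G] {b g y : G} (h : y * (b⁻¹ * g * b) = b⁻¹ * g * b * y) :
    b * y * b⁻¹ * g = g * (b * y * b⁻¹) := by
  calc b * y * b⁻¹ * g = b * (y * (b⁻¹ * g * b)) * b⁻¹ := by group
    _ = b * ((b⁻¹ * g * b) * y) * b⁻¹ := by rw [h]
    _ = _ := by group

section

variable {K : Type} [Field K] [Fintype K]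

/-- **`³D₄(3)`**, from the two boxes. -/
theorem all_six_of (hK : Fintype.card K = 3 ^ 3) {σ : K ≃+* K} (hσ : ∀ x, σ x = x ^ 3)
    (c : HexGrp σ ↥(twistedD4 K 3))
    (hdiag : ∀ (s : K) (hs : s ≠ 0), ((c.pb (dg s hs) : ↥(twistedD4 K 3)) : GL chevD4.Idx K) ∈ chevD4.diagonalSubgroup K)
    (hpar : ∀ u : ↥(twistedD4 K 3), orderOf u = 3 → ∃ (P : Subgroup ↥(twistedD4 K 3)) (a : ↥(twistedD4 K 3)),
      Subgroup.centralizer ({u} : Set ↥(twistedD4 K 3)) ≤ P ∧ (Nat.card P = 110539728 ∨ Nat.card P = 773778096) ∧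
      (∀ t : ↥(twistedD4 K 3), (t : GL chevD4.Idx K) ∈ chevD4.diagonalSubgroup K → a * t * a⁻¹ ∈ P))
    {M : Subgroup ↥(twistedD4 K 3)} (hM : All 6 M) (ha : ∀ x, c.pa x ∈ M)
    (hb : ∀ x : SL2 ↥(fx σ), c.pb (Matrix.SpecialLinearGroup.map (fx σ).subtype x) ∈ M) :
    All 6 ↥(twistedD4 K 3) := by
  classical
  set G := ↥(twistedD4 K 3) with hG
  have hfin : Finite G := inferInstance
  have hq : IsPrimePow 3 := Nat.prime_three.isPrimePow
  have hcG : Nat.card G = 20560831566912 := by rw [S1067.result hq hK]; norm_num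
  have h13 : Fact (Nat.Prime 13) := ⟨by norm_num⟩
  have h3p : Fact (Nat.Prime 3) := ⟨Nat.prime_three⟩
  have h27 : Fintype.card K = 27 := by rw [hK]; norm_num
  have h2 : (2 : K) ≠ 0 := by
    intro h
    have h3 : CharP K 2 := CharTwo.of_one_ne_zero_of_two_eq_zero one_ne_zero h
    obtain ⟨n, -, hn⟩ := FiniteField.card K 2
    rw [hK] at hn
    have h4 : 2 ∣ 3 ^ 3 := by rw [hn]; exact dvd_pow_self 2 n.ne_zero
    omega
  have hfx : Nat.card ↥(fx σ) = 3 :=
    Cfsg.Agent.ChevalleyStructure.D4U.card_fix_field (φ := (σ : K →+* K)) (by norm_num) hK hσ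
  have hcK : Nat.card K = 27 := by rw [Nat.card_eq_fintype_card, h27]
  have hnd := H121.TwD4.trc_nondeg (q := 3) (by norm_num) hK hσ
  -- the element `y`
  obtain ⟨s, hs⟩ := exists_prim hK
  have hs0 : s ≠ 0 := hs.ne_zero (by norm_num)
  have hns : nrm σ s = 1 := by
    unfold nrm
    rw [hσ, hσ, ← pow_mul, ← hs.pow_eq_one]
    ring
  set w : K := s ^ 2 with hw
  have hwp : IsPrimitiveRoot w 13 := hs.pow_of_coprime 2 (by norm_num)
  have hw1 : w ≠ 1 := hwp.ne_one (by norm_num)
  have hnw : nrm σ w = 1 := by rw [hw, pow_two, nrm_mul, hns, one_mul]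
  set y : G := c.pb (dg s hs0) with hyd
  have hy : c.Act y w 1 := (c.act_b s hs0).congr rfl rfl (by rw [hns, inv_one])
  have oy : orderOf y = 13 := by
    apply orderOf_eq_prime
    · have h1 := act_pow c hy 13
      rw [hwp.pow_eq_one] at h1
      exact h1.eq_one
    · intro h
      have h1 := hy.a1 1
      rw [h, one_mul, inv_one, mul_one, mul_one] at h1
      exact hw1 (c.x1_inj h1).symm
  have hcy : Nat.card (Subgroup.centralizer ({y} : Set G)) ≤ 826686 := by
    have h1 := card_cent_y c h2 hy hnw hw1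
    rw [hfx, hcK] at h1
    exact h1.trans (by norm_num)
  -- elements of order 13 commuting with elements of order 3
  have hcj : ∀ u v : G, orderOf u = 3 → orderOf v = 13 → v * u = u * v → ∃ b : G, b * v * b⁻¹ ∈ Subgroup.zpowers y := by
    intro u v hu hv huv
    obtain ⟨P, a, hP, hcP, hT⟩ := hpar u hu
    have h1 : a * y * a⁻¹ ∈ P := hT y (hdiag s hs0)
    have h4 : v ∈ P := hP (Subgroup.mem_centralizer_singleton_iff.2 huv)
    have h5 : ¬ 13 ^ 2 ∣ Nat.card P := by
      rcases hcP with h | h <;> rw [h] <;> norm_num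
    obtain ⟨b, hb⟩ := conj_of_prime P h5 h4 h1 hv (by
      rw [← oy]
      exact orderOf_injective (MulAut.conj a).toMonoidHom (MulAut.conj a).injective y)
    obtain ⟨k, hk⟩ := Subgroup.mem_zpowers_iff.1 hb
    refine ⟨a⁻¹ * b, Subgroup.mem_zpowers_iff.2 ⟨k, ?_⟩⟩
    have h6 : (a * y * a⁻¹) ^ k = a * y ^ k * a⁻¹ := by
      have := (map_zpow (MulAut.conj a) y k)
      exact this.symm
    rw [h6] at hk
    exact gi1 hk
  have hcj2 : ∀ u v : G, orderOf u = 3 → orderOf v = 13 → v * u = u * v → ∃ b : G, ∀ g : G, g * v = v * g →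
      (b * g * b⁻¹) * y = y * (b * g * b⁻¹) := by
    intro u v hu hv huv
    obtain ⟨b, hb⟩ := hcj u v hu hv huv
    refine ⟨b, fun g hg => ?_⟩
    have h1 : orderOf (b * v * b⁻¹) = 13 := by
      rw [← hv]
      exact orderOf_injective (MulAut.conj b).toMonoidHom (MulAut.conj b).injective v
    have h4 : Subgroup.zpowers (b * v * b⁻¹) = Subgroup.zpowers y := by
      apply Subgroup.eq_of_le_of_card_ge ((Subgroup.zpowers_le).2 hb)
      rw [Nat.card_zpowers, Nat.card_zpowers, h1, oy]
    have h5 : y ∈ Subgroup.zpowers (b * v * b⁻¹) := by rw [h4]; exact Subgroup.mem_zpowers y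
    obtain ⟨k, hk⟩ := Subgroup.mem_zpowers_iff.1 h5
    have h6 : Commute (b * g * b⁻¹) (b * v * b⁻¹) := gi2 hg
    rw [← hk]
    exact (h6.zpow_right k).eq
  intro g
  -- powers
  have hpw : ∀ p : ℕ, p.Prime → p ∣ orderOf g → ∃ u ∈ Subgroup.zpowers g, orderOf u = p := by
    intro p hp hd
    have hpos : 0 < orderOf g := orderOf_pos g
    refine ⟨g ^ (orderOf g / p), Subgroup.npow_mem_zpowers _ _, ?_⟩
    rw [orderOf_pow_of_dvd (Nat.div_pos (Nat.le_of_dvd hpos hd) hp.pos).ne' (Nat.div_dvd_of_dvd hd)]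
    exact Nat.div_div_self hd hpos.ne'
  have hcle : ∀ u ∈ Subgroup.zpowers g, Subgroup.centralizer ({g} : Set G) ≤ Subgroup.centralizer ({u} : Set G) := by
    intro u hu x hx
    obtain ⟨k, rfl⟩ := Subgroup.mem_zpowers_iff.1 hu
    rw [Subgroup.mem_centralizer_singleton_iff] at hx ⊢
    have : Commute x g := hx
    exact (this.zpow_right k).eq
  have hcomm : ∀ u ∈ Subgroup.zpowers g, g * u = u * g := by
    intro u hu
    obtain ⟨k, rfl⟩ := Subgroup.mem_zpowers_iff.1 hu
    exact ((Commute.refl g).zpow_right k).eq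
  by_cases h2g : 2 ∣ orderOf g
  · obtain ⟨t, ht, hto⟩ := hpw 2 Nat.prime_two h2g
    refine pr_of_cent hK g ?_
    exact (Subgroup.card_le_of_le (hcle t ht)).trans ((H874.Pw.card_cent_inv_three hK hto).trans (by norm_num))
  have hodd : Odd (orderOf g) := by
    rw [← Nat.not_even_iff_odd, even_iff_two_dvd]
    exact h2g
  by_cases h3g : 3 ∣ orderOf g
  · obtain ⟨u, hu, huo⟩ := hpw 3 Nat.prime_three h3g
    have hgu := hcomm u hu
    by_cases hC : 13 ∣ Nat.card (Subgroup.centralizer ({g} : Set G))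
    · by_cases h13g : 13 ∣ orderOf g
      · obtain ⟨v, hv, hvo⟩ := hpw 13 h13.out h13g
        have hvu : v * u = u * v := by
          obtain ⟨k, rfl⟩ := Subgroup.mem_zpowers_iff.1 hu
          have : Commute v g := (hcomm v hv).symm
          exact (this.zpow_right k).eq
        obtain ⟨b, hb⟩ := hcj2 u v huo hvo hvu
        refine pr_of_cent hK g ?_
        refine le_trans ?_ (hcy.trans (by norm_num))
        refine Nat.card_le_card_of_injective (fun x : ↥(Subgroup.centralizer ({g} : Set G)) =>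
          (⟨b * x * b⁻¹, Subgroup.mem_centralizer_singleton_iff.2 (hb x (Subgroup.mem_centralizer_singleton_iff.1
            (hcle v hv x.2)))⟩ : ↥(Subgroup.centralizer ({y} : Set G)))) ?_
        intro x x' h
        have h1 := congrArg Subtype.val h
        apply Subtype.ext
        exact mul_left_cancel (mul_right_cancel h1)
      · obtain ⟨v, hv⟩ := exists_prime_orderOf_dvd_card' (G := ↥(Subgroup.centralizer ({g} : Set G))) 13 hC
        have hvo : orderOf (v : G) = 13 := by rw [Subgroup.orderOf_coe, hv]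
        have hvg : (v : G) * g = g * v := Subgroup.mem_centralizer_singleton_iff.1 v.2
        have hvu : (v : G) * u = u * v := by
          obtain ⟨k, rfl⟩ := Subgroup.mem_zpowers_iff.1 hu
          have : Commute (v : G) g := hvg
          exact (this.zpow_right k).eq
        obtain ⟨b, hb'⟩ := hcj2 u v huo hvo hvu
        have h4 := hb' g hvg.symm
        obtain ⟨i, hi⟩ := cent_y_mem c ha hb h27 h2 hy hnw hwp h4
        set g' := b * g * b⁻¹ with hg'
        have hog : orderOf g' = orderOf g :=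
          orderOf_injective (MulAut.conj b).toMonoidHom (MulAut.conj b).injective g
        have h5 : g' ^ 13 ∈ M := by
          have h6 := pow_mem hi 13
          have h7 : Commute g' (y ^ i) := by
            have : Commute g' y := h4
            exact this.pow_right i
          rw [h7.mul_pow, ← pow_mul, mul_comm i 13, pow_mul, ← oy, pow_orderOf_eq_one, one_pow, mul_one, oy] at h6
          exact h6
        have h8 : g' ∈ M := by
          have hcop : Nat.Coprime 13 (orderOf g') := by
            rw [hog]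
            exact (Nat.Prime.coprime_iff_not_dvd h13.out).2 h13g
          have h9 : g' ∈ Subgroup.zpowers (g' ^ 13) := by
            have h10 : orderOf (g' ^ 13) = orderOf g' := Nat.Coprime.orderOf_pow hcop.symm
            have h11 : Subgroup.zpowers (g' ^ 13) = Subgroup.zpowers g' := by
              apply Subgroup.eq_of_le_of_card_ge ((Subgroup.zpowers_le).2 (Subgroup.npow_mem_zpowers _ _))
              rw [Nat.card_zpowers, Nat.card_zpowers, h10]
            rw [h11]
            exact Subgroup.mem_zpowers _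
          exact (Subgroup.zpowers_le.2 h5) h9
        exact Pr.of_conj (x := b) (Pr.of_mem hM h8)
    · refine pr_of_cent hK g ?_
      obtain ⟨P, a, hP, hcP, hT⟩ := hpar u huo
      have hle : Subgroup.centralizer ({g} : Set G) ≤ P := (hcle u hu).trans hP
      have hd := Subgroup.card_dvd_of_le hle
      have hcop : Nat.Coprime (Nat.card (Subgroup.centralizer ({g} : Set G))) 13 :=
        ((Nat.Prime.coprime_iff_not_dvd h13.out).2 hC).symm
      rcases hcP with h | h
      · rw [h, show 110539728 = 8503056 * 13 by norm_num] at hd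
        exact (Nat.le_of_dvd (by norm_num) (hcop.dvd_of_dvd_mul_right hd)).trans (by norm_num)
      · rw [h, show 773778096 = 59521392 * 13 by norm_num] at hd
        have hd' := hcop.dvd_of_dvd_mul_right hd
        by_cases h12 : 3 ^ 12 ∣ Nat.card (Subgroup.centralizer ({g} : Set G))
        · exfalso
          apply hC
          obtain ⟨b, hb'⟩ := conj_of_sylow (p := 3) (n := 12) (Subgroup.centralizer ({g} : Set G)) (Sg c.X Pos)
            (by rw [hcG]; norm_num) h12 (by rw [card_pos c, hfx, hcK]; norm_num)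
          have h4 : b⁻¹ * g * b ∈ c.X 4 := by
            refine cent_pos c h2 hnd ?_ fun x hx => ?_
            · have : orderOf (b⁻¹ * g * b) = orderOf g := by
                have := orderOf_injective (MulAut.conj b⁻¹).toMonoidHom (MulAut.conj b⁻¹).injective g
                rw [← this]
                congr 1
              rw [this]
              exact hodd
            · have h5 := Subgroup.mem_centralizer_singleton_iff.1 (hb' x hx)
              exact gi3 h5
          obtain ⟨t, ht, ht'⟩ := (c.par.mem4 _).1 h4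
          have h6 : b * y * b⁻¹ ∈ Subgroup.centralizer ({g} : Set G) := by
            rw [Subgroup.mem_centralizer_singleton_iff]
            have h7 := hy.a4 t ht
            rw [hnw, one_pow, one_mul, one_mul, mul_inv_eq_iff_eq_mul, ht'] at h7
            exact gi4 h7
          have h8 : orderOf (b * y * b⁻¹) = 13 := by
            rw [← oy]
            exact orderOf_injective (MulAut.conj b).toMonoidHom (MulAut.conj b).injective y
          rw [← h8]
          exact Subgroup.orderOf_dvd_natCard _ h6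
        · -- the order divides `3 ^ 11 * 112`
          have h4 : Nat.card (Subgroup.centralizer ({g} : Set G)) ∣ 19840464 := by
            obtain ⟨a, b, ha', hb', hab⟩ := (Nat.dvd_mul).1 (show Nat.card (Subgroup.centralizer ({g} : Set G)) ∣
              3 ^ 12 * 112 by rw [show 3 ^ 12 * 112 = 59521392 by norm_num]; exact hd')
            obtain ⟨i, hi, rfl⟩ := (Nat.dvd_prime_pow Nat.prime_three).1 ha'
            have hi12 : i ≠ 12 := by
              rintro rfl
              exact h12 ⟨b, hab.symm⟩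
            have h5 : 3 ^ i ∣ 3 ^ 11 := pow_dvd_pow 3 (by omega)
            rw [← hab, show 19840464 = 3 ^ 11 * 112 by norm_num]
            exact Nat.mul_dvd_mul h5 hb'
          exact (Nat.le_of_dvd (by norm_num) h4).trans (by norm_num)
  · refine Pr.of_coprime ?_
    rw [show 6 = 2 * 3 by norm_num]
    exact Nat.Coprime.mul_right (((Nat.Prime.coprime_iff_not_dvd Nat.prime_two).2 h2g).symm)
      (((Nat.Prime.coprime_iff_not_dvd Nat.prime_three).2 h3g).symm)

end

end Cfsg.Agent.H922.TD
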