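import Cfsg.Agent.H866.TD.Two
import Cfsg.Agent.H911.TD.Psi
import Cfsg.Agent.Nodes.Slope

/-!
# S3509, `³D₄(q)`, second class of triality automorphisms, `q ≡ 2 mod 3`: the fixed points in `X₁₂ X₁₃ X₂₃` (helper922)

* `inf_12` : `X₁₂ ∩ X₁₃ X₂₃ = 1`;
* `fix_V2` : the fixed points of `x₀` in `X₁₂ X₁₃ X₂₃` are in `X₁₂`.
-/

set_option autoImplicit false
set_option linter.unusedSectionVars false
set_option maxHeartbeats 400000

namespace Cfsg.Agent.H922.TD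

open CoxeterSystem Cfsg.Agent.ChevalleyStructure.CoxeterGeom Cfsg.Agent.Tits.Roots Cfsg.Agent.Tits.Core
  Cfsg.Agent.Tits.Exchange Cfsg.Agent.Nodes.Reps Cfsg.Agent.Nodes.BNOf Cfsg.Agent.Nodes.StabComb
  Cfsg.Agent.Nodes.Bruhat Cfsg.Agent.Nodes.OppDec Cfsg.Agent.Nodes.LeviDec Cfsg.Agent.Nodes.RGDTwGen
  Cfsg.Agent.Nodes.RGDChev Cfsg.Agent.Nodes.RGDFold Cfsg.Agent.Nodes.RGDFoldSL
open Cfsg.Agent.KFacts.RgdOpp Cfsg.Agent.KFacts.RgdAut Cfsg.Agent.KFacts.RgdDiag Cfsg.Agent.KFacts.RgdRigid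
  Cfsg.Agent.KFacts.RgdField Cfsg.Agent.KFacts.RgdTau Cfsg.Agent.KFacts.RgdNodes
open Cfsg Cfsg.Lie Cfsg.Agent.ChevalleyStructure Cfsg.Agent.ChevalleyStructure.Elts
open Cfsg.Agent.ChevalleyStructure.SL2Hom (up lo mem_closure_SL2)
open Cfsg.Agent.KFacts.TwDFour.Out
open Cfsg.Agent.Nodes.RGDTwD4 Cfsg.Agent.Nodes.RGDTwNode.D4
open Cfsg.Agent.CpAut.RgdFix Cfsg.Agent.CpAut.RgdConj Cfsg.Agent.CpAut.RgdTwStd Cfsg.Agent.CpAut.RgdTwD4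
open Cfsg.Agent.H28.FamFour (st_mul st_one)
open Cfsg.Agent.H866.D4Wf.Frame Cfsg.Agent.H866.D4Wf.SLThree Cfsg.Agent.H866.TD
open Cfsg.Agent.H911.TD (mm Fxo mem_Fxo xo xo_12 xo_apply)

/-- a linear form -/
def lin (α β : ℤ) : (Fin 2 → ℤ) →+ ℤ where
  toFun z := α * z 0 + β * z 1
  map_zero' := by simp
  map_add' x y := by simp only [Pi.add_apply]; ring

variable {K : Type} [Field K] [Fintype K] {q : ℕ} (hK : Fintype.card K = q ^ 3)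
  {φ : K →+* K} (hφ : ∀ x, φ x = x ^ q)

include hK hφ

/-- separation by a linear form -/
theorem inf_lin (α β : ℤ) {S S' : Set (Fin 2 → ℤ)} (hS : ∀ z ∈ S, z ∈ rts ∧ 0 < α * z 0 + β * z 1)
    (hS' : ∀ z ∈ S', z ∈ rts ∧ α * z 0 + β * z 1 < 0) {g : ↥(twistedD4 K q)} (hg : g ∈ RGD.Sup (X φ q) S)
    (hg' : g ∈ RGD.Sup (X φ q) S') : g = 1 := by
  obtain ⟨r, hr⟩ := CharP.exists K
  have : Fact r.Prime := ⟨CharP.char_is_prime K r⟩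
  have : Finite CoxeterMatrix.G₂.Group := finiteW cs
  refine Nodes.Slope.sup_inf_sup (rgd' hK hφ r) (lin α β) ?_ ?_
  · exact RGD.Sup_mono (S := S) (S' := {x | IsRoot cs isCartan x ∧ 0 < lin α β x})
      (fun w hw => ⟨isRoot_of_mem (hS w hw).1, (hS w hw).2⟩) hg
  · exact RGD.Sup_mono (S := S') (S' := {x | IsRoot cs isCartan x ∧ lin α β x < 0})
      (fun w hw => ⟨isRoot_of_mem (hS' w hw).1, (hS' w hw).2⟩) hg'

/-- `X₁₂ ∩ X₁₃ X₂₃ = 1` -/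
theorem inf_12 {a b c : ↥(twistedD4 K q)} (ha : a ∈ X φ q ![1, 2]) (hb : b ∈ X φ q ![1, 3]) (hc : c ∈ X φ q ![2, 3])
    (h : a = b * c) : a = 1 := by
  have h1 : c = 1 := by
    refine inf_lin hK hφ (-8) 5 (S := {![1, 2], ![1, 3]}) (S' := {![2, 3]}) ?_ ?_ ?_ ?_
    · rintro z (rfl | rfl)
      · exact ⟨by decide, by norm_num⟩
      · exact ⟨by decide, by norm_num⟩
    · rintro z rfl
      exact ⟨by decide, by norm_num⟩
    · have h2 : c = b⁻¹ * a := by rw [h, inv_mul_cancel_left]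
      rw [h2]
      exact mul_mem (inv_mem (RGD.le_Sup (S := {![1, 2], ![1, 3]}) (Or.inr rfl) hb))
        (RGD.le_Sup (S := {![1, 2], ![1, 3]}) (Or.inl rfl) ha)
    · exact RGD.le_Sup (S := {![2, 3]}) rfl hc
  subst h1
  rw [mul_one] at h
  subst h
  refine inf_lin hK hφ 5 (-2) (S := {![1, 2]}) (S' := {![1, 3]}) ?_ ?_ ?_ ?_
  · rintro z rfl
    exact ⟨by decide, by norm_num⟩
  · rintro z rfl
    exact ⟨by decide, by norm_num⟩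
  · exact RGD.le_Sup (S := {![1, 2]}) rfl ha
  · exact RGD.le_Sup (S := {![1, 3]}) rfl hb

/-- `Φ₀` normalises `X₁₃ X₂₃` -/
theorem V3_norm (A : Matrix.SpecialLinearGroup (Fin 2) (KD φ 0)) {v : ↥(twistedD4 K q)}
    (hv : v ∈ X φ q ![1, 3] ⊔ X φ q ![2, 3]) :
    PhiD hφ hK 0 A * v * (PhiD hφ hK 0 A)⁻¹ ∈ X φ q ![1, 3] ⊔ X φ q ![2, 3] := by
  have h13 : X φ q ![1, 3] ≤ X φ q ![1, 3] ⊔ X φ q ![2, 3] := le_sup_left
  have h23 : X φ q ![2, 3] ≤ X φ q ![1, 3] ⊔ X φ q ![2, 3] := le_sup_right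
  have hN : ∀ {S : Subgroup ↥(twistedD4 K q)},
      (∀ s ∈ S, ∀ v ∈ X φ q ![1, 3], s * v * s⁻¹ ∈ X φ q ![1, 3] ⊔ X φ q ![2, 3]) →
      (∀ s ∈ S, ∀ v ∈ X φ q ![2, 3], s * v * s⁻¹ ∈ X φ q ![1, 3] ⊔ X φ q ![2, 3]) →
      S ≤ Subgroup.normalizer ((X φ q ![1, 3] ⊔ X φ q ![2, 3] : Subgroup _) : Set ↥(twistedD4 K q)) := by
    intro S h2 h3
    have h4 : ∀ s ∈ S, ∀ v ∈ X φ q ![1, 3] ⊔ X φ q ![2, 3], s * v * s⁻¹ ∈ X φ q ![1, 3] ⊔ X φ q ![2, 3] := by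
      intro s hs
      have h5 : X φ q ![1, 3] ⊔ X φ q ![2, 3] ≤
          (X φ q ![1, 3] ⊔ X φ q ![2, 3] : Subgroup _).comap (MulAut.conj s).toMonoidHom :=
        sup_le (fun v hv => h2 s hs v hv) (fun v hv => h3 s hs v hv)
      exact fun v hv => h5 hv
    intro s hs
    rw [Subgroup.mem_normalizer_iff]
    intro v
    refine ⟨h4 s hs v, fun h => ?_⟩
    have h6 := h4 s⁻¹ (inv_mem hs) _ h
    rwa [inv_inv, mul_assoc, inv_mul_cancel_right, inv_mul_cancel_left] at h6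
  have hcm : ∀ {s v : ↥(twistedD4 K q)}, s * v = v * s → v ∈ X φ q ![1, 3] ⊔ X φ q ![2, 3] →
      s * v * s⁻¹ ∈ X φ q ![1, 3] ⊔ X φ q ![2, 3] := by
    intro s v h hv
    rwa [h, mul_inv_cancel_right]
  have hcm' : ∀ {s v : ↥(twistedD4 K q)}, s * v * s⁻¹ * v⁻¹ ∈ X φ q ![1, 3] ⊔ X φ q ![2, 3] →
      v ∈ X φ q ![1, 3] ⊔ X φ q ![2, 3] → s * v * s⁻¹ ∈ X φ q ![1, 3] ⊔ X φ q ![2, 3] := by
    intro s v h hv
    have := mul_mem h hv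
    rwa [inv_mul_cancel_right] at this
  have h10 := hN (S := X φ q ![1, 0]) (fun s hs v hv => hcm' (h23 (comm_sr0_del hK hφ hs hv)) (h13 hv))
      (fun s hs v hv => hcm (comm_sr0_the hK hφ hs hv) (h23 hv))
  have hn10 := hN (S := X φ q ![-1, 0]) (fun s hs v hv => hcm (comm_nsr0_del hK hφ hs hv) (h13 hv))
      (fun s hs v hv => hcm' (h13 (comm_nsr0_the' hK hφ hs hv)) (h23 hv))
  have h3 : Subgroup.closure (Set.range (up (F := KD φ 0)) ∪ Set.range (lo (F := KD φ 0))) ≤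
      (Subgroup.normalizer ((X φ q ![1, 3] ⊔ X φ q ![2, 3] : Subgroup _) : Set ↥(twistedD4 K q))).comap
        (PhiD hφ hK 0) := by
    rw [Subgroup.closure_le]
    rintro _ (⟨a, rfl⟩ | ⟨a, rfl⟩)
    · exact h10 (by rw [← sr0_eq]; exact (mem_X hφ hK 0 _).2 ⟨a, rfl⟩)
    · have e : (-sr 0 : Fin 2 → ℤ) = ![-1, 0] := by decide
      exact hn10 (by rw [← e]; exact (mem_negX hK hφ 0 _).2 ⟨a, rfl⟩)
  exact (Subgroup.mem_normalizer_iff.1 (h3 (mem_closure_SL2 A)) v).1 hv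

/-- the field automorphism fixes `X₁₃` -/
theorem st_13 (hq : IsPrimePow q) {τ : K ≃+* K} (hτ : τ ^ 3 = 1) {b : ↥(twistedD4 K q)} (hb : b ∈ X φ q ![1, 3]) :
    st q τ b = b := by
  obtain ⟨a, ha, rfl⟩ := exists_n_conj hK hφ 1 (x := ![1, 0]) (y := ![1, 3]) (by decide) (by rw [rep1]; decide) hb
  rw [← sr0_eq] at ha
  obtain ⟨s, rfl⟩ := (mem_X hφ hK 0 _).1 ha
  rw [map_mul, map_mul, map_inv, st_n, st_Phi_zero hK hφ hq hτ]

/-- the field automorphism fixes `X₂₃` -/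
theorem st_23 (hq : IsPrimePow q) {τ : K ≃+* K} (hτ : τ ^ 3 = 1) {b : ↥(twistedD4 K q)} (hb : b ∈ X φ q ![2, 3]) :
    st q τ b = b := by
  obtain ⟨a, ha, rfl⟩ := exists_n_conj hK hφ 0 (x := ![1, 3]) (y := ![2, 3]) (by decide) (by rw [rep0]; decide) hb
  rw [map_mul, map_mul, map_inv, st_n, st_13 hK hφ hq hτ ha]

/-- **The fixed points in `X₁₂ X₁₃ X₂₃` are in `X₁₂`.** -/
theorem fix_V2 (hq : IsPrimePow q) {A : Matrix.SpecialLinearGroup (Fin 2) (KD φ 0)}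
    (hA : ∀ C : Matrix.SpecialLinearGroup (Fin 2) (KD φ 0), (C * A * C⁻¹).1 1 0 ≠ 0) {τ : K ≃+* K} (hτ : τ ^ 3 = 1)
    {y : ↥(twistedD4 K q)} (hy : y ∈ V2 φ q) (hx : xo hK hφ A τ y = y) : y ∈ X φ q ![1, 2] := by
  obtain ⟨a, ha, b, hb, c, hc, rfl⟩ := mem_V2 hK hφ hy
  have h1 : xo hK hφ A τ a = st q τ a := xo_12 hK hφ A (Or.inl ha)
  have h2 : st q τ a ∈ X φ q ![1, 2] := (fixX_st hK hφ τ (isRoot_of_mem (by decide)) a).2 ha
  have h3 : xo hK hφ A τ (b * c) = PhiD hφ hK 0 A * (b * c) * (PhiD hφ hK 0 A)⁻¹ := by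
    rw [xo_apply, map_mul, st_13 hK hφ hq hτ hb, st_23 hK hφ hq hτ hc]
  have h4 := V3_norm hK hφ A (mul_mem ((le_sup_left : X φ q ![1, 3] ≤ _ ⊔ X φ q ![2, 3]) hb)
    ((le_sup_right : X φ q ![2, 3] ≤ X φ q ![1, 3] ⊔ _) hc))
  rw [map_mul, h1, h3] at hx
  obtain ⟨w, hw⟩ : ∃ w, w = PhiD hφ hK 0 A * (b * c) * (PhiD hφ hK 0 A)⁻¹ := ⟨_, rfl⟩
  rw [← hw] at hx h4
  have h5 : a⁻¹ * st q τ a = b * c * w⁻¹ := by
    rw [eq_mul_inv_iff_mul_eq, mul_assoc, hx, inv_mul_cancel_left]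
  have h6 : b * c * w⁻¹ ∈ X φ q ![1, 3] ⊔ X φ q ![2, 3] :=
    mul_mem (mul_mem ((le_sup_left : X φ q ![1, 3] ≤ _ ⊔ X φ q ![2, 3]) hb)
      ((le_sup_right : X φ q ![2, 3] ≤ X φ q ![1, 3] ⊔ _) hc)) (inv_mem h4)
  -- products
  obtain ⟨b', hb', c', hc', e⟩ : ∃ b' ∈ X φ q ![1, 3], ∃ c' ∈ X φ q ![2, 3], b * c * w⁻¹ = b' * c' := by
    have h7 : X φ q ![1, 3] ≤ Subgroup.normalizer (X φ q ![2, 3] : Set ↥(twistedD4 K q)) := by
      intro a ha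
      rw [Subgroup.mem_normalizer_iff]
      intro b
      constructor
      · intro hb
        rw [comm_del_the hK hφ ha hb, mul_inv_cancel_right]
        exact hb
      · intro hb
        have h4 := comm_del_the hK hφ (inv_mem ha) hb
        have h5 : a * b * a⁻¹ = b := by
          have h6 : a⁻¹ * (a * b * a⁻¹) = b * a⁻¹ := by group
          rw [h6] at h4
          exact (mul_right_cancel h4).symm
        rwa [h5] at hb
    have h8 : b * c * w⁻¹ ∈ ((X φ q ![1, 3] ⊔ X φ q ![2, 3] : Subgroup _) : Set ↥(twistedD4 K q)) := h6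
    rw [Subgroup.coe_mul_of_left_le_normalizer_right _ _ h7, Set.mem_mul] at h8
    obtain ⟨l, hl, v, hv, e⟩ := h8
    exact ⟨l, hl, v, hv, e.symm⟩
  have h7 : b * c * w⁻¹ = 1 := by
    rw [← h5]
    exact inf_12 hK hφ (mul_mem (inv_mem ha) h2) hb' hc' (h5.trans e)
  have h8 : b * c = 1 := by
    refine eq_one_V3 hK hφ hA hb hc ?_
    rw [← hw]
    exact (mul_inv_eq_one.1 h7).symm
  rw [h8, mul_one]
  exact ha

end Cfsg.Agent.H922.TD
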