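import Cfsg.Agent.H442.TD.FThree
import Cfsg.Agent.H202.TD.TorOne
import Cfsg.Agent.H922.TD.FixV

/-!
# S3509, `³D₄(q)`, second class of triality automorphisms, `q ≡ 2 mod 3`: coordinates in `V_J / X₁₂ X₁₃ X₂₃` (helper922)

`B a = Φ₁ (up a)`, `C b = n₀ Φ₁ (up b) n₀⁻¹`; `R w a b` : `w ∈ B a * C b * V2`.

* `R_mul`, `R_inj`, `R_exists`;
* `conj_R` : conjugation by elements of `P_J`;
* `R_T`, `R_n0`, `R_up` : the torus, `n 0`, `Φ₀ (up s)`;
* `Lin`, `lin_LJ` : elements of `L_J` act `K`-linearly.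
-/

set_option autoImplicit false
set_option linter.unusedSectionVars false
set_option maxHeartbeats 400000

namespace Cfsg.Agent.H922.TD.HF

open CoxeterSystem Cfsg.Agent.ChevalleyStructure.CoxeterGeom Cfsg.Agent.Tits.Roots Cfsg.Agent.Tits.Core
  Cfsg.Agent.Tits.Exchange Cfsg.Agent.Nodes.Reps Cfsg.Agent.Nodes.BNOf Cfsg.Agent.Nodes.StabComb
  Cfsg.Agent.Nodes.Bruhat Cfsg.Agent.Nodes.OppDec Cfsg.Agent.Nodes.LeviDec Cfsg.Agent.Nodes.RGDTwGen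
  Cfsg.Agent.Nodes.RGDChev Cfsg.Agent.Nodes.RGDFold Cfsg.Agent.Nodes.RGDFoldSL
open Cfsg.Agent.KFacts.RgdOpp Cfsg.Agent.KFacts.RgdAut Cfsg.Agent.KFacts.RgdDiag Cfsg.Agent.KFacts.RgdRigid
  Cfsg.Agent.KFacts.RgdField Cfsg.Agent.KFacts.RgdTau Cfsg.Agent.KFacts.RgdNodes
open Cfsg Cfsg.Lie Cfsg.Agent.ChevalleyStructure Cfsg.Agent.ChevalleyStructure.Elts
open Cfsg.Agent.ChevalleyStructure.SL2Hom (up lo mem_closure_SL2)
open Cfsg.Agent.KFacts.TwDFour.Out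
open Cfsg.Agent.Nodes.RGDTwD4 Cfsg.Agent.Nodes.RGDTwNode.D4
open Cfsg.Agent.CpAut.RgdFix Cfsg.Agent.CpAut.RgdConj Cfsg.Agent.CpAut.RgdTwStd Cfsg.Agent.CpAut.RgdTwD4
open Cfsg.Agent.H28.FamFour (st_mul st_one)
open Cfsg.Agent.H866.D4Wf.Frame Cfsg.Agent.H866.D4Wf.SLThree Cfsg.Agent.H866.TD
open Cfsg.Agent.H442.TD.FThree (SP L2 LW commV inv01 inf11 cZ_mul cZ_cube cZ_factor)
open Cfsg.Agent.H202.TD (n_conj_T ch_inv ch10)
open scoped commutatorElement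

variable {K : Type} [Field K] [Fintype K] {q : ℕ} (hK : Fintype.card K = q ^ 3)
  {φ : K →+* K} (hφ : ∀ x, φ x = x ^ q)

theorem V2_eq : SP φ q L2 = V2 φ q := by
  have h : ({z | z ∈ L2} : Set (Fin 2 → ℤ)) = {![1, 2], ![1, 3], ![2, 3]} := by
    ext z
    simp [L2]
  unfold SP V2
  rw [h]

/-- the root group of `![0, 1]` -/
noncomputable def B (a : KD φ 1) : ↥(twistedD4 K q) := PhiD hφ hK 1 (up a)

/-- the root group of `![1, 1]` -/
noncomputable def C (b : KD φ 1) : ↥(twistedD4 K q) := n hφ 0 * PhiD hφ hK 1 (up b) * (n hφ 0)⁻¹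

theorem B_add (a b : KD φ 1) : B hK hφ (a + b) = B hK hφ a * B hK hφ b := by
  unfold B
  rw [← map_mul, up_mul]

theorem C_add (a b : KD φ 1) : C hK hφ (a + b) = C hK hφ a * C hK hφ b := by
  unfold C
  rw [← up_mul, map_mul]
  group

theorem B_zero : B hK hφ 0 = 1 := (coordD hφ hK 1).zero

theorem C_zero : C hK hφ 0 = 1 := by
  have h := B_zero hK hφ
  unfold B at h
  unfold C
  rw [h, mul_one, mul_inv_cancel]

theorem B_neg (a : KD φ 1) : B hK hφ (-a) = (B hK hφ a)⁻¹ := by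
  apply eq_inv_of_mul_eq_one_left
  rw [← B_add, neg_add_cancel, B_zero]

theorem C_neg (a : KD φ 1) : C hK hφ (-a) = (C hK hφ a)⁻¹ := by
  apply eq_inv_of_mul_eq_one_left
  rw [← C_add, neg_add_cancel, C_zero]

theorem B_mem (a : KD φ 1) : B hK hφ a ∈ X φ q ![0, 1] := by
  rw [← sr1_eq]
  exact (mem_X hφ hK 1 _).2 ⟨a, rfl⟩

theorem C_mem (b : KD φ 1) : C hK hφ b ∈ X φ q ![1, 1] := by
  have h := n_conj hK hφ 0 (x := ![0, 1]) (by decide) (B_mem hK hφ b)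
  rw [rep0, show (![1 - 0, 1] : Fin 2 → ℤ) = ![1, 1] by decide] at h
  exact h

theorem B_inj {a : KD φ 1} (h : B hK hφ a = 1) : a = 0 := by
  by_contra ha
  exact (coordD hφ hK 1).ne_one ha h

theorem C_inj {a : KD φ 1} (h : C hK hφ a = 1) : a = 0 := by
  apply B_inj hK hφ
  unfold C at h
  unfold B
  have e : PhiD hφ hK 1 (up a) = (n hφ 0)⁻¹ * (n hφ 0 * PhiD hφ hK 1 (up a) * (n hφ 0)⁻¹) * n hφ 0 := by group
  rw [e, h]
  group

theorem B_V (a : KD φ 1) : B hK hφ a ∈ VJ cs isCartan (X φ q) {0} :=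
  X_le_V hK hφ 0 (by decide) (fun k => by fin_cases k <;> decide) ⟨1, by decide, by decide⟩ (B_mem hK hφ a)

theorem C_V (a : KD φ 1) : C hK hφ a ∈ VJ cs isCartan (X φ q) {0} :=
  X_le_V hK hφ 0 (by decide) (fun k => by fin_cases k <;> decide) ⟨1, by decide, by decide⟩ (C_mem hK hφ a)

include hK hφ in
theorem V2_le : V2 φ q ≤ VJ cs isCartan (X φ q) {0} := by
  refine RGD.Sup_le fun w hw => ?_
  rcases hw with rfl | rfl | rfl
  · exact X_le_V hK hφ 0 (by decide) (fun k => by fin_cases k <;> decide) ⟨1, by decide, by decide⟩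
  · exact X_le_V hK hφ 0 (by decide) (fun k => by fin_cases k <;> decide) ⟨1, by decide, by decide⟩
  · exact X_le_V hK hφ 0 (by decide) (fun k => by fin_cases k <;> decide) ⟨1, by decide, by decide⟩

include hK hφ in
theorem comm_V {g h : ↥(twistedD4 K q)} (hg : g ∈ VJ cs isCartan (X φ q) {0})
    (hh : h ∈ VJ cs isCartan (X φ q) {0}) : ⁅g, h⁆ ∈ V2 φ q := by
  rw [← V2_eq]
  exact commV hK hφ hg hh

include hK hφ in
theorem conj_V2 {p v : ↥(twistedD4 K q)} (hp : p ∈ VJ cs isCartan (X φ q) {0}) (hv : v ∈ V2 φ q) :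
    p * v * p⁻¹ ∈ V2 φ q := PJ_conj_V2 hK hφ (VJ_le_PJ hp) hv

/-- coordinates -/
def R (w : ↥(twistedD4 K q)) (a b : KD φ 1) : Prop := (B hK hφ a * C hK hφ b)⁻¹ * w ∈ V2 φ q

theorem R_mk (a b : KD φ 1) {v : ↥(twistedD4 K q)} (hv : v ∈ V2 φ q) : R hK hφ (B hK hφ a * C hK hφ b * v) a b := by
  unfold R
  rwa [inv_mul_cancel_left]

theorem R_B (a : KD φ 1) : R hK hφ (B hK hφ a) a 0 := by
  unfold R
  rw [C_zero, mul_one, inv_mul_cancel]
  exact one_mem _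

theorem R_C (b : KD φ 1) : R hK hφ (C hK hφ b) 0 b := by
  unfold R
  rw [B_zero, one_mul, inv_mul_cancel]
  exact one_mem _

theorem R_V2 {v : ↥(twistedD4 K q)} (hv : v ∈ V2 φ q) : R hK hφ v 0 0 := by
  unfold R
  rw [B_zero, C_zero, one_mul, inv_one, one_mul]
  exact hv

theorem R_mul {w w' : ↥(twistedD4 K q)} {a b a' b' : KD φ 1} (h : R hK hφ w a b) (h' : R hK hφ w' a' b') :
    R hK hφ (w * w') (a + a') (b + b') := by
  unfold R at *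
  have h1 := conj_V2 hK hφ (p := (B hK hφ a' * C hK hφ b')⁻¹)
    (inv_mem (mul_mem (B_V hK hφ a') (C_V hK hφ b'))) h
  have h2 := conj_V2 hK hφ (p := (C hK hφ b')⁻¹) (inv_mem (C_V hK hφ b'))
    (comm_V hK hφ (inv_mem (C_V hK hφ b)) (inv_mem (B_V hK hφ a')))
  have e : (B hK hφ (a + a') * C hK hφ (b + b'))⁻¹ * (w * w') =
      ((C hK hφ b')⁻¹ * ⁅(C hK hφ b)⁻¹, (B hK hφ a')⁻¹⁆ * (C hK hφ b')⁻¹⁻¹) *
      (((B hK hφ a' * C hK hφ b')⁻¹ * ((B hK hφ a * C hK hφ b)⁻¹ * w) * ((B hK hφ a' * C hK hφ b')⁻¹)⁻¹) *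
      ((B hK hφ a' * C hK hφ b')⁻¹ * w')) := by
    rw [B_add, C_add, commutatorElement_def]
    group
  rw [e]
  exact mul_mem h2 (mul_mem h1 h')

theorem BC_inj {a b : KD φ 1} (h : B hK hφ a * C hK hφ b ∈ V2 φ q) : a = 0 ∧ b = 0 := by
  have h1 : b = 0 := by
    apply C_inj hK hφ
    refine inf11 hK hφ (C_mem hK hφ b) ?_
    have e : C hK hφ b = B hK hφ (-a) * (B hK hφ a * C hK hφ b) := by
      rw [B_neg, inv_mul_cancel_left]
    rw [e]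
    refine mul_mem (H442.TD.FThree.X_le (by decide) (B_mem hK hφ _)) ?_
    rw [← V2_eq] at h
    exact H442.TD.FThree.SP_mono (by decide) h
  subst h1
  rw [C_zero, mul_one] at h
  refine ⟨B_inj hK hφ (inf_lin hK hφ (-4) 1 (S := {![0, 1]}) (S' := {![1, 2], ![1, 3], ![2, 3]}) ?_ ?_
    (RGD.le_Sup (S := {![0, 1]}) rfl (B_mem hK hφ a)) h), rfl⟩
  · rintro z rfl
    exact ⟨by decide, by norm_num⟩
  · rintro z (rfl | rfl | rfl)
    · exact ⟨by decide, by norm_num⟩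
    · exact ⟨by decide, by norm_num⟩
    · exact ⟨by decide, by norm_num⟩

theorem R_inj {w : ↥(twistedD4 K q)} {a b a' b' : KD φ 1} (h : R hK hφ w a b) (h' : R hK hφ w a' b') :
    a = a' ∧ b = b' := by
  unfold R at *
  have h1 : B hK hφ (a - a') * C hK hφ (b - b') ∈ V2 φ q := by
    have h2 := mul_mem h' (inv_mem h)
    have h3 := conj_V2 hK hφ (C_V hK hφ b') h2
    have e : C hK hφ b' * ((B hK hφ a' * C hK hφ b')⁻¹ * w * ((B hK hφ a * C hK hφ b)⁻¹ * w)⁻¹) * (C hK hφ b')⁻¹ =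
        B hK hφ (a - a') * C hK hφ (b - b') := by
      rw [sub_eq_neg_add, sub_eq_add_neg, B_add, C_add, B_neg, C_neg]
      group
    rwa [e] at h3
  obtain ⟨h2, h3⟩ := BC_inj hK hφ h1
  exact ⟨sub_eq_zero.1 h2, sub_eq_zero.1 h3⟩

theorem R_inv {w : ↥(twistedD4 K q)} {a b : KD φ 1} (h : R hK hφ w a b) : R hK hφ w⁻¹ (-a) (-b) := by
  unfold R at *
  have h1 := conj_V2 hK hφ (p := C hK hφ b * B hK hφ a) (mul_mem (C_V hK hφ b) (B_V hK hφ a)) (inv_mem h)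
  have h2 := comm_V hK hφ (C_V hK hφ b) (B_V hK hφ a)
  have e : (B hK hφ (-a) * C hK hφ (-b))⁻¹ * w⁻¹ =
      (C hK hφ b * B hK hφ a * ((B hK hφ a * C hK hφ b)⁻¹ * w)⁻¹ * (C hK hφ b * B hK hφ a)⁻¹) *
        ⁅C hK hφ b, B hK hφ a⁆ := by
    rw [B_neg, C_neg, commutatorElement_def]
    group
  rw [e]
  exact mul_mem h1 h2

theorem R_exists {w : ↥(twistedD4 K q)} (hw : w ∈ VJ cs isCartan (X φ q) {0}) : ∃ a b, R hK hφ w a b := by
  let S : Subgroup ↥(twistedD4 K q) :=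
    { carrier := {w | ∃ a b, R hK hφ w a b}
      one_mem' := ⟨0, 0, R_V2 hK hφ (one_mem _)⟩
      mul_mem' := by
        rintro x y ⟨a, b, h⟩ ⟨a', b', h'⟩
        exact ⟨_, _, R_mul hK hφ h h'⟩
      inv_mem' := by
        rintro x ⟨a, b, h⟩
        exact ⟨_, _, R_inv hK hφ h⟩ }
  have h1 : VJ cs isCartan (X φ q) {0} ≤ S := by
    refine RGD.Sup_le fun x hx => ?_
    obtain ⟨hx1, hx2, k, hk, hk'⟩ := hx
    have hk1 : k = 1 := by
      fin_cases k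
      · simp at hk
      · rfl
    subst hk1
    have h1 : ∀ x ∈ rts, 0 < x 1 → x = ![0, 1] ∨ x = ![1, 1] ∨ x = ![1, 2] ∨ x = ![1, 3] ∨ x = ![2, 3] := by decide
    rcases h1 x (root_mem hx1) hk' with rfl | rfl | rfl | rfl | rfl
    · intro y hy
      rw [← sr1_eq] at hy
      obtain ⟨a, rfl⟩ := (mem_X hφ hK 1 y).1 hy
      exact ⟨a, 0, R_B hK hφ a⟩
    · intro y hy
      obtain ⟨x, hx, rfl⟩ := exists_n_conj hK hφ 0 (x := ![0, 1]) (y := ![1, 1]) (by decide)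
        (by rw [rep0]; decide) hy
      rw [← sr1_eq] at hx
      obtain ⟨a, rfl⟩ := (mem_X hφ hK 1 x).1 hx
      exact ⟨0, a, R_C hK hφ a⟩
    · exact fun y hy => ⟨0, 0, R_V2 hK hφ (X12_le hy)⟩
    · exact fun y hy => ⟨0, 0, R_V2 hK hφ (X13_le hy)⟩
    · exact fun y hy => ⟨0, 0, R_V2 hK hφ (X23_le hy)⟩
  exact h1 hw

/-- conjugation by an element of `P_J` -/
theorem conj_R {p : ↥(twistedD4 K q)} (hp : p ∈ PJ cs isCartan (T K q) (X φ q) {0}) {w : ↥(twistedD4 K q)}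
    {a b a1 b1 a2 b2 : KD φ 1} (h1 : R hK hφ (p * B hK hφ a * p⁻¹) a1 b1) (h2 : R hK hφ (p * C hK hφ b * p⁻¹) a2 b2)
    (h : R hK hφ w a b) : R hK hφ (p * w * p⁻¹) (a1 + a2) (b1 + b2) := by
  have h3 := R_V2 hK hφ (PJ_conj_V2 hK hφ hp h)
  have h4 := R_mul hK hφ (R_mul hK hφ h1 h2) h3
  rw [add_zero, add_zero] at h4
  have e : p * B hK hφ a * p⁻¹ * (p * C hK hφ b * p⁻¹) * (p * ((B hK hφ a * C hK hφ b)⁻¹ * w) * p⁻¹) = p * w * p⁻¹ := by
    group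
  rwa [e] at h4

/-- conjugation by `p` is `K`-linear -/
def Lin (p : ↥(twistedD4 K q)) : Prop := ∃ x y z u : KD φ 1, ∀ w a b, R hK hφ w a b →
  R hK hφ (p * w * p⁻¹) (x * a + y * b) (z * a + u * b)

theorem Lin.mul {p p' : ↥(twistedD4 K q)} (h : Lin hK hφ p) (h' : Lin hK hφ p') : Lin hK hφ (p * p') := by
  obtain ⟨x, y, z, u, h⟩ := h
  obtain ⟨x', y', z', u', h'⟩ := h'
  refine ⟨x * x' + y * z', x * y' + y * u', z * x' + u * z', z * y' + u * u', fun w a b hw => ?_⟩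
  have h1 := h _ _ _ (h' w a b hw)
  have e : p * (p' * w * p'⁻¹) * p⁻¹ = p * p' * w * (p * p')⁻¹ := by group
  rw [e] at h1
  convert h1 using 1 <;> ring

/-- the range of `Φ₀` is in `L_J` -/
theorem Phi_LJ (M : Matrix.SpecialLinearGroup (Fin 2) (KD φ 0)) :
    PhiD hφ hK 0 M ∈ LJ cs isCartan (T K q) (X φ q) {0} := by
  have h3 : Subgroup.closure (Set.range (up (F := KD φ 0)) ∪ Set.range (lo (F := KD φ 0))) ≤
      (LJ cs isCartan (T K q) (X φ q) {0}).comap (PhiD hφ hK 0) := by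
    rw [Subgroup.closure_le]
    rintro _ (⟨a, rfl⟩ | ⟨a, rfl⟩)
    · refine X_le_LJ (x := sr 0) ⟨isRoot_sr cs isCartan 0, ?_⟩ ((mem_X hφ hK 0 _).2 ⟨a, rfl⟩)
      intro k hk
      fin_cases k
      · simp at hk
      · decide
    · refine X_le_LJ (x := -sr 0) ⟨(isRoot_sr cs isCartan 0).neg, ?_⟩ ((mem_negX hK hφ 0 _).2 ⟨a, rfl⟩)
      intro k hk
      fin_cases k
      · simp at hk
      · decide
  exact h3 (mem_closure_SL2 M)

include hK in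
theorem n0_PJ : n hφ 0 ∈ PJ cs isCartan (T K q) (X φ q) {0} := by
  have h := LJ_le_PJ (Phi_LJ hK hφ (wS 1))
  rwa [PhiD_wS] at h

/-- the torus -/
theorem R_T {t : ↥(twistedD4 K q)} (ht : t ∈ T K q) {w : ↥(twistedD4 K q)} {a b : KD φ 1} (h : R hK hφ w a b)
    {c : KD φ 1} (hc : (c : K) = (chD hφ hK 0 t : K) * (chD hφ hK 1 t : K)) :
    R hK hφ (t * w * t⁻¹) (chD hφ hK 1 t * a) (c * b) := by
  have h1 : t * B hK hφ a * t⁻¹ = B hK hφ (chD hφ hK 1 t * a) := act_up hK hφ ht 1 a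
  have hP := PhiD_hS hφ hK 0 _ (ch_ne_zero hK hφ ht 0)
  have hT : (n hφ 0)⁻¹ * t * n hφ 0 ∈ T K q := by
    rw [n_conj_T hK hφ ht]
    exact mul_mem (inv_mem hP) ht
  have h2 : t * C hK hφ b * t⁻¹ = C hK hφ (c * b) := by
    have h3 : chD hφ hK 1 ((n hφ 0)⁻¹ * t * n hφ 0) = c := by
      apply Subtype.ext
      rw [n_conj_T hK hφ ht, ch_mul hK hφ (inv_mem hP) ht, ch_inv hK hφ hP]
      show (chD hφ hK 1 (PhiD hφ hK 0 (hS (chD hφ hK 0 t))) : K)⁻¹ * (chD hφ hK 1 t : K) = _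
      rw [ch01 hφ hK _ (ch_ne_zero hK hφ ht 0), inv_inv, hc]
    have h4 := act_up hK hφ hT 1 b
    rw [h3] at h4
    unfold C
    rw [← h4]
    group
  have h3 := conj_R hK hφ (LJ_le_PJ (T_le_LJ ht)) (by rw [h1]; exact R_B hK hφ _) (by rw [h2]; exact R_C hK hφ _) h
  rwa [add_zero, zero_add] at h3

/-- `n 0` -/
theorem R_n0 {w : ↥(twistedD4 K q)} {a b : KD φ 1} (h : R hK hφ w a b) :
    R hK hφ (n hφ 0 * w * (n hφ 0)⁻¹) (-b) a := by
  have h2 : n hφ 0 * C hK hφ b * (n hφ 0)⁻¹ = B hK hφ (-b) := by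
    have h3 := inv01 hK hφ (B_mem hK hφ b)
    rw [B_neg, ← h3]
    unfold C B
    group
  have h3 := conj_R hK hφ (n0_PJ hK hφ) (a1 := 0) (b1 := a) (a2 := -b) (b2 := 0) (by exact R_C hK hφ _)
    (by rw [h2]; exact R_B hK hφ _) h
  rwa [add_zero, zero_add] at h3

theorem R_n0_inv {w : ↥(twistedD4 K q)} {a b : KD φ 1} (h : R hK hφ w a b) :
    R hK hφ ((n hφ 0)⁻¹ * w * n hφ 0) b (-a) := by
  obtain ⟨m, hm⟩ : ∃ m, m = (n hφ 0)⁻¹ * w * n hφ 0 := ⟨_, rfl⟩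
  have hmV : m ∈ VJ cs isCartan (X φ q) {0} := by
    have hw : w ∈ VJ cs isCartan (X φ q) {0} := by
      have h3 : w = B hK hφ a * C hK hφ b * ((B hK hφ a * C hK hφ b)⁻¹ * w) := by group
      rw [h3]
      exact mul_mem (mul_mem (B_V hK hφ a) (C_V hK hφ b)) (V2_le hK hφ h)
    obtain ⟨r, hr⟩ := CharP.exists K
    have : Fact r.Prime := ⟨CharP.char_is_prime K r⟩
    have h4 := (Subgroup.mem_normalizer_iff.1 (PJ_le_normalizer_VJ (rgd' hK hφ r) ({0} : Set (Fin 2))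
      (inv_mem (n0_PJ hK hφ))) w).1 hw
    rw [inv_inv] at h4
    rw [hm]
    exact h4
  obtain ⟨x, y, hxy⟩ := R_exists hK hφ hmV
  have h4 := R_n0 hK hφ hxy
  have e : n hφ 0 * m * (n hφ 0)⁻¹ = w := by rw [hm]; group
  rw [e] at h4
  obtain ⟨e1, e2⟩ := R_inj hK hφ h4 h
  rw [← hm, ← e1, ← e2, neg_neg]
  exact hxy

end Cfsg.Agent.H922.TD.HF
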