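import Cfsg.Agent.H922.TD.HFixA

/-!
# S3509, `³D₄(q)`, second class of triality automorphisms, `q ≡ 2 mod 3`: `L_J` acts linearly on `V_J / V2` (helper922)

* `R_up` : `[Φ₀ (up s), B a] = C (s a)` modulo `V2`;
* `lin_LJ`;
* `R_c` : `Φ₀ cZ` acts by `(a, b) ↦ (b - a, -a)`.
-/

set_option autoImplicit false
set_option linter.unusedSectionVars false
set_option maxHeartbeats 400000

namespace Cfsg.Agent.H922.TD.HF

open CoxeterSystem Cfsg.Agent.ChevalleyStructure.CoxeterGeom Cfsg.Agent.Tits.Roots Cfsg.Agent.Tits.Core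
  Cfsg.Agent.Tits.Exchange Cfsg.Agent.Nodes.Reps Cfsg.Agent.Nodes.BNOf Cfsg.Agent.Nodes.StabComb
  Cfsg.Agent.Nodes.Bruhat Cfsg.Agent.Nodes.OppDec Cfsg.Agent.Nodes.LeviDec Cfsg.Agent.Nodes.RGDTwGen
  Cfsg.Agent.Nodes.RGDChev Cfsg.Agent.Nodes.RGDFold Cfsg.Agent.Nodes.RGDFoldSL
open Cfsg.Agent.KFacts.RgdOpp Cfsg.Agent.KFacts.RgdAut Cfsg.Agent.KFacts.RgdDiag Cfsg.Agent.KFacts.RgdRigid
  Cfsg.Agent.KFacts.RgdField Cfsg.Agent.KFacts.RgdTau Cfsg.Agent.KFacts.RgdNodes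
open Cfsg Cfsg.Lie Cfsg.Agent.ChevalleyStructure Cfsg.Agent.ChevalleyStructure.Elts
open Cfsg.Agent.ChevalleyStructure.SL2Hom (up lo mem_closure_SL2)
open Cfsg.Agent.KFacts.TwDFour.Out
open Cfsg.Agent.Nodes.RGDTwD4 Cfsg.Agent.Nodes.RGDTwNode.D4
open Cfsg.Agent.CpAut.RgdFix Cfsg.Agent.CpAut.RgdConj Cfsg.Agent.CpAut.RgdTwStd Cfsg.Agent.CpAut.RgdTwD4
open Cfsg.Agent.H28.FamFour (st_mul st_one)
open Cfsg.Agent.H866.D4Wf.Frame Cfsg.Agent.H866.D4Wf.SLThree Cfsg.Agent.H866.TD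
open Cfsg.Agent.H442.TD.FThree (SP L1 L2 LW commV inv01 inf11 cZ_mul cZ_cube cZ_factor)
open Cfsg.Agent.H202.TD (n_conj_T ch_inv ch10)
open scoped commutatorElement

variable {K : Type} [Field K] [Fintype K] {q : ℕ} (hK : Fintype.card K = q ^ 3)
  {φ : K →+* K} (hφ : ∀ x, φ x = x ^ q)

theorem up_X (s : KD φ 0) : PhiD hφ hK 0 (up s) ∈ X φ q ![1, 0] := by
  rw [← sr0_eq]
  exact (mem_X hφ hK 0 _).2 ⟨s, rfl⟩

theorem up_PJ (s : KD φ 0) : PhiD hφ hK 0 (up s) ∈ PJ cs isCartan (T K q) (X φ q) {0} :=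
  LJ_le_PJ (Phi_LJ hK hφ _)

/-- the coordinates of `Φ₀ (up s) B a Φ₀ (up s)⁻¹` -/
theorem up_ex (s : KD φ 0) (a : KD φ 1) :
    ∃ g, R hK hφ (PhiD hφ hK 0 (up s) * B hK hφ a * (PhiD hφ hK 0 (up s))⁻¹) a g := by
  have h1 := H442.TD.FThree.comm_X hK hφ (x := ![1, 0]) (y := ![0, 1]) (S := L1)
    (by decide) (by decide) (by decide) (up_X hK hφ s) (B_mem hK hφ a)
  let S : Subgroup ↥(twistedD4 K q) :=
    { carrier := {w | ∃ b, R hK hφ w 0 b}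
      one_mem' := ⟨0, R_V2 hK hφ (one_mem _)⟩
      mul_mem' := by
        rintro x y ⟨b, h⟩ ⟨b', h'⟩
        refine ⟨b + b', ?_⟩
        have := R_mul hK hφ h h'
        rwa [add_zero] at this
      inv_mem' := by
        rintro x ⟨b, h⟩
        refine ⟨-b, ?_⟩
        have := R_inv hK hφ h
        rwa [neg_zero] at this }
  have h2 : SP φ q L1 ≤ S := by
    refine RGD.Sup_le fun x hx => ?_
    have h3 : x = ![1, 1] ∨ x = ![1, 2] ∨ x = ![1, 3] ∨ x = ![2, 3] := by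
      have : x ∈ L1 := hx
      simpa [L1] using this
    rcases h3 with rfl | rfl | rfl | rfl
    · intro y hy
      obtain ⟨x, hx, rfl⟩ := exists_n_conj hK hφ 0 (x := ![0, 1]) (y := ![1, 1]) (by decide)
        (by rw [rep0]; decide) hy
      rw [← sr1_eq] at hx
      obtain ⟨a, rfl⟩ := (mem_X hφ hK 1 x).1 hx
      exact ⟨a, R_C hK hφ a⟩
    · exact fun y hy => ⟨0, R_V2 hK hφ (X12_le hy)⟩
    · exact fun y hy => ⟨0, R_V2 hK hφ (X13_le hy)⟩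
    · exact fun y hy => ⟨0, R_V2 hK hφ (X23_le hy)⟩
  obtain ⟨b, hb⟩ := h2 h1
  refine ⟨b, ?_⟩
  have h3 := R_mul hK hφ hb (R_B hK hφ a)
  rw [zero_add, add_zero, commutatorElement_def, inv_mul_cancel_right] at h3
  exact h3

theorem up_step {s : KD φ 0} {a g : KD φ 1}
    (hg : R hK hφ (PhiD hφ hK 0 (up s) * B hK hφ a * (PhiD hφ hK 0 (up s))⁻¹) a g)
    {w : ↥(twistedD4 K q)} {b : KD φ 1} (h : R hK hφ w a b) :
    R hK hφ (PhiD hφ hK 0 (up s) * w * (PhiD hφ hK 0 (up s))⁻¹) a (g + b) := by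
  have h2 : PhiD hφ hK 0 (up s) * C hK hφ b * (PhiD hφ hK 0 (up s))⁻¹ = C hK hφ b := by
    rw [comm_sr0_11 hK hφ (up_X hK hφ s) (C_mem hK hφ b), mul_inv_cancel_right]
  have h3 := conj_R hK hφ (up_PJ hK hφ s) hg (a2 := 0) (b2 := b) (by rw [h2]; exact R_C hK hφ _) h
  rwa [add_zero] at h3

/-- `Φ₀ (up (-1))` -/
theorem up_neg_one (a : KD φ 1) :
    R hK hφ (PhiD hφ hK 0 (up (-1)) * B hK hφ a * (PhiD hφ hK 0 (up (-1)))⁻¹) a (-a) := by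
  obtain ⟨g, hg⟩ := up_ex hK hφ (-1) a
  obtain ⟨g', hg'⟩ := up_ex hK hφ (-1) g
  obtain ⟨g0, hg0⟩ := up_ex hK hφ (-1) 0
  obtain ⟨P, hP⟩ : ∃ P, P = PhiD hφ hK 0 (up (-1)) := ⟨_, rfl⟩
  have hc := cZ_factor hK hφ
  have h3 : PhiD hφ hK 0 cZ * PhiD hφ hK 0 cZ * PhiD hφ hK 0 cZ = 1 := by
    rw [← map_mul, ← map_mul, cZ_cube, map_one]
  have hg00 : g0 = 0 := by
    rw [B_zero, mul_one, mul_inv_cancel] at hg0
    exact (R_inj hK hφ hg0 (R_V2 hK hφ (one_mem _))).2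
  rw [hg00] at hg0
  have w1 := R_n0_inv hK hφ (up_step hK hφ hg0 (R_C hK hφ a))
  rw [zero_add, neg_zero] at w1
  have w2 := R_n0_inv hK hφ (up_step hK hφ hg w1)
  rw [add_zero] at w2
  have w3 := R_n0_inv hK hφ (up_step hK hφ hg' w2)
  obtain ⟨c, hcc⟩ : ∃ c, c = PhiD hφ hK 0 cZ := ⟨_, rfl⟩
  rw [← hP] at w3 hc hg
  rw [← hcc] at h3 hc
  have e : (n hφ 0)⁻¹ * (P * ((n hφ 0)⁻¹ * (P * ((n hφ 0)⁻¹ * (P * C hK hφ a * P⁻¹) * n hφ 0) * P⁻¹) * n hφ 0) * P⁻¹) *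
      n hφ 0 = C hK hφ a := by
    have hc' : c⁻¹ = P⁻¹ * n hφ 0 := by rw [hc]; group
    calc _ = ((n hφ 0)⁻¹ * P) * ((n hφ 0)⁻¹ * P) * ((n hφ 0)⁻¹ * P) * C hK hφ a *
        ((P⁻¹ * n hφ 0) * (P⁻¹ * n hφ 0) * (P⁻¹ * n hφ 0)) := by group
      _ = (c * c * c) * C hK hφ a * (c * c * c)⁻¹ := by rw [← hc', ← hc]; group
      _ = C hK hφ a := by rw [h3]; group
  rw [e] at w3
  have h5 := (R_inj hK hφ w3 (R_C hK hφ a)).2
  rw [← hP]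
  have h6 : g = -a := by rw [← h5, neg_neg]
  rw [← h6]
  exact hg

/-- `Φ₀ cZ` -/
theorem R_c {w : ↥(twistedD4 K q)} {a b : KD φ 1} (h : R hK hφ w a b) :
    R hK hφ (PhiD hφ hK 0 cZ * w * (PhiD hφ hK 0 cZ)⁻¹) (b - a) (-a) := by
  have h1 := R_n0_inv hK hφ (up_step hK hφ (up_neg_one hK hφ a) h)
  have e : (n hφ 0)⁻¹ * (PhiD hφ hK 0 (up (-1)) * w * (PhiD hφ hK 0 (up (-1)))⁻¹) * n hφ 0 =
      PhiD hφ hK 0 cZ * w * (PhiD hφ hK 0 cZ)⁻¹ := by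
    rw [cZ_factor hK hφ]
    group
  rw [e, neg_add_eq_sub] at h1
  exact h1

include hK hφ in
/-- cubes -/
theorem exists_cube (hq : IsPrimePow q) (h3 : q % 3 = 2) {s : KD φ 0} (hs : s ≠ 0) : ∃ e : KD φ 0, e ≠ 0 ∧ e ^ 3 = s := by
  have hc := card_KD0 hK hφ hq
  have h1 : Nat.card (KD φ 0)ˣ = q - 1 := by
    rw [Nat.card_units, hc]
  have h2 : (Nat.card (KD φ 0)ˣ).Coprime 3 := by
    rw [h1]
    have : ¬ 3 ∣ q - 1 := by omega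
    exact ((Nat.Prime.coprime_iff_not_dvd Nat.prime_three).2 this).symm
  obtain ⟨e, he⟩ := (powCoprime h2).surjective (Units.mk0 s hs)
  refine ⟨e, e.ne_zero, ?_⟩
  have h4 := congrArg (fun u : (KD φ 0)ˣ => (u : KD φ 0)) he
  simpa [powCoprime] using h4

/-- a torus element with given first character -/
theorem exists_t (hq : IsPrimePow q) (h3 : q % 3 = 2) {s : KD φ 0} (hs : s ≠ 0) :
    ∃ t ∈ T K q, chD hφ hK 0 t = s := by
  obtain ⟨e, he, he3⟩ := exists_cube hK hφ hq h3 (inv_ne_zero hs)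
  have he1 : H911.TD.inc hK hφ e ≠ 0 := by
    intro h
    exact he ((H911.TD.inc hK hφ).injective (by rw [h, map_zero]))
  refine ⟨PhiD hφ hK 1 (hS (H911.TD.inc hK hφ e)), PhiD_hS hφ hK 1 _ he1, ?_⟩
  apply Subtype.ext
  rw [ch10 hK hφ _ he1 (mem_Fx.1 e.2)]
  show ((e : K) ^ 3)⁻¹ = s
  have h5 : (e : K) ^ 3 = (s : K)⁻¹ := congrArg (fun u : KD φ 0 => (u : K)) he3
  rw [h5, inv_inv]

/-- **`[Φ₀ (up s), B a] = C (s a)`** -/
theorem R_upB (hq : IsPrimePow q) (h3 : q % 3 = 2) (s : KD φ 0) (a : KD φ 1) :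
    R hK hφ (PhiD hφ hK 0 (up s) * B hK hφ a * (PhiD hφ hK 0 (up s))⁻¹) a (H911.TD.inc hK hφ s * a) := by
  by_cases hs : s = 0
  · subst hs
    have h1 : PhiD hφ hK 0 (up 0) = 1 := (coordD hφ hK 0).zero
    rw [h1, map_zero, zero_mul, one_mul, inv_one, mul_one]
    exact R_B hK hφ a
  obtain ⟨t, ht, hts⟩ := exists_t hK hφ hq h3 (neg_ne_zero.2 hs)
  obtain ⟨b, hb⟩ : ∃ b, b = chD hφ hK 1 t := ⟨_, rfl⟩
  have hb0 : b ≠ 0 := by rw [hb]; exact ch_ne_zero hK hφ ht 1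
  have h1 := up_neg_one hK hφ (b⁻¹ * a)
  have h2 := R_T hK hφ ht h1 (c := H911.TD.inc hK hφ (-s) * b) (by rw [hts, ← hb]; rfl)
  rw [← hb] at h2
  have e1 : b * (b⁻¹ * a) = a := by rw [← mul_assoc, mul_inv_cancel₀ hb0, one_mul]
  have e2 : H911.TD.inc hK hφ (-s) * b * -(b⁻¹ * a) = H911.TD.inc hK hφ s * a := by
    rw [map_neg, mul_neg, neg_mul, neg_mul, neg_neg, mul_assoc, e1]
  rw [e1, e2] at h2
  have e3 : t * PhiD hφ hK 0 (up (-1)) * t⁻¹ = PhiD hφ hK 0 (up s) := by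
    rw [act_up hK hφ ht, hts, neg_mul_neg, mul_one]
  have e4 : t * B hK hφ (b⁻¹ * a) * t⁻¹ = B hK hφ a := by
    have := act_up hK hφ ht 1 (b⁻¹ * a)
    rw [← hb, e1] at this
    exact this
  have e5 : t * (PhiD hφ hK 0 (up (-1)) * B hK hφ (b⁻¹ * a) * (PhiD hφ hK 0 (up (-1)))⁻¹) * t⁻¹ =
      PhiD hφ hK 0 (up s) * B hK hφ a * (PhiD hφ hK 0 (up s))⁻¹ := by
    rw [← e3, ← e4]
    group
  rwa [e5] at h2

theorem R_up (hq : IsPrimePow q) (h3 : q % 3 = 2) (s : KD φ 0) {w : ↥(twistedD4 K q)} {a b : KD φ 1}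
    (h : R hK hφ w a b) : R hK hφ (PhiD hφ hK 0 (up s) * w * (PhiD hφ hK 0 (up s))⁻¹) a
      (H911.TD.inc hK hφ s * a + b) := up_step hK hφ (R_upB hK hφ hq h3 s a) h

theorem lin_up (hq : IsPrimePow q) (h3 : q % 3 = 2) (s : KD φ 0) : Lin hK hφ (PhiD hφ hK 0 (up s)) := by
  refine ⟨1, 0, H911.TD.inc hK hφ s, 1, fun w a b h => ?_⟩
  have := R_up hK hφ hq h3 s h
  rwa [one_mul, zero_mul, add_zero, one_mul]

theorem lin_T {t : ↥(twistedD4 K q)} (ht : t ∈ T K q) : Lin hK hφ t := by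
  refine ⟨chD hφ hK 1 t, 0, 0, H911.TD.inc hK hφ (chD hφ hK 0 t) * chD hφ hK 1 t, fun w a b h => ?_⟩
  have := R_T hK hφ ht h (c := H911.TD.inc hK hφ (chD hφ hK 0 t) * chD hφ hK 1 t) rfl
  rwa [zero_mul, add_zero, zero_mul, zero_add]

theorem lin_n0 : Lin hK hφ (n hφ 0) := by
  refine ⟨0, -1, 1, 0, fun w a b h => ?_⟩
  have := R_n0 hK hφ h
  rwa [zero_mul, zero_add, neg_one_mul, one_mul, zero_mul, add_zero]

/-- upper triangular matrices -/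
theorem eq_of_zero {F : Type*} [Field F] {M : Matrix.SpecialLinearGroup (Fin 2) F} (h : M.1 1 0 = 0) :
    M.1 0 0 ≠ 0 ∧ M = up (M.1 0 1 * M.1 0 0) * hS (M.1 0 0) := by
  have hd := M.2
  rw [Matrix.det_fin_two, h, mul_zero, sub_zero] at hd
  have h0 : M.1 0 0 ≠ 0 := left_ne_zero_of_mul_eq_one hd
  have h1 : M.1 1 1 = (M.1 0 0)⁻¹ := eq_inv_of_mul_eq_one_right hd
  refine ⟨h0, ?_⟩
  apply Subtype.ext
  rw [Matrix.SpecialLinearGroup.coe_mul, coe_hS h0, up_coe]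
  ext i j
  fin_cases i <;> fin_cases j
  · simp [Matrix.mul_apply, Fin.sum_univ_two]
  · simp [Matrix.mul_apply, Fin.sum_univ_two, h0]
  · simp [Matrix.mul_apply, Fin.sum_univ_two, h]
  · simp [Matrix.mul_apply, Fin.sum_univ_two, h1]

theorem lin_Phi (hq : IsPrimePow q) (h3 : q % 3 = 2) (M : Matrix.SpecialLinearGroup (Fin 2) (KD φ 0)) :
    Lin hK hφ (PhiD hφ hK 0 M) := by
  by_cases h : M.1 1 0 = 0
  · obtain ⟨h1, h2⟩ := eq_of_zero h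
    rw [h2, map_mul]
    exact (lin_up hK hφ hq h3 _).mul hK hφ (lin_T hK hφ (PhiD_hS hφ hK 0 _ h1))
  · rw [Cfsg.Agent.KFacts.TwESix.NodeCoord.eq_of_ne_zero h, map_mul, map_mul, map_mul, PhiD_wS]
    have hd : -(M.1 1 0)⁻¹ ≠ 0 := neg_ne_zero.2 (inv_ne_zero h)
    exact ((lin_up hK hφ hq h3 _).mul hK hφ ((lin_T hK hφ (PhiD_hS hφ hK 0 _ hd)).mul hK hφ (lin_n0 hK hφ))).mul hK hφ
      (lin_up hK hφ hq h3 _)

include hK hφ in
/-- `L_J = Φ₀ T` -/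
theorem exists_LJ {y : ↥(twistedD4 K q)} (hy : y ∈ LJ cs isCartan (T K q) (X φ q) {0}) :
    ∃ (M : Matrix.SpecialLinearGroup (Fin 2) (KD φ 0)), ∃ t ∈ T K q, y = PhiD hφ hK 0 M * t := by
  obtain ⟨r, hr⟩ := CharP.exists K
  have : Fact r.Prime := ⟨CharP.char_is_prime K r⟩
  have : Finite CoxeterMatrix.G₂.Group := finiteW cs
  have R := rgd' hK hφ r
  have h1 : LJ cs isCartan (T K q) (X φ q) {0} ≤ T K q ⊔ (PhiD hφ hK 0).range := by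
    refine sup_le le_sup_left (le_trans (RGD.Sup_le fun x hx => ?_) le_sup_right)
    have hx' : x = sr 0 ∨ x = -sr 0 := by
      have h1 : ∀ x ∈ rts, x 1 = 0 → x = sr 0 ∨ x = -sr 0 := by decide
      exact h1 x (root_mem hx.1) (hx.2 1 (by simp))
    rcases hx' with rfl | rfl
    · intro y hy
      obtain ⟨a, rfl⟩ := (mem_X hφ hK 0 y).1 hy
      exact ⟨_, rfl⟩
    · intro y hy
      obtain ⟨a, rfl⟩ := (mem_negX hK hφ 0 y).1 hy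
      exact ⟨_, rfl⟩
  obtain ⟨t, ht, m, hm, e2⟩ := Cfsg.Agent.OddOrderLocal.TypePData.mem_sup_of_le_normalizer (T_le_normalizer hK hφ 0)
    (h1 (inv_mem hy))
  obtain ⟨M, rfl⟩ := hm
  refine ⟨M⁻¹, t⁻¹, inv_mem ht, ?_⟩
  rw [← inv_inv y, e2, map_inv]
  group

end Cfsg.Agent.H922.TD.HF
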