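import Cfsg.Agent.Cit.HexInv
import Cfsg.Agent.H240.HexZ

/-!
# Groups of type `³D₄`: the centre of the positive part, the centralizer of a torus element of norm one (helper922, S2465)

* `center_pos` : an element of the positive part `U` commuting with `U` lies in the long root group `X 4`;
* `cent_pos` : an element of odd order commuting with `U` lies in `X 4`;
* `form_y` : `y` acting by `(w, 1)` with `nrm w = 1`, `w ≠ 1`: an element commuting with `y` is `u n h v` with `u`, `v` in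
  `⟨X 2, X 4, X 6⟩`;
* `cent_y_mem` : it is in `M ⟨y⟩`, `M` the subgroup over the fixed field, if `w` is a primitive 13-th root of unity and
  `|E| = 27`;
* `card_cent_y` : a bound for the order of the centralizer.
-/

set_option autoImplicit false

namespace Cfsg.Agent.H922.TD

open Cfsg.Agent.SplitTwo Cfsg.Agent.TitsThree.RankTwoZ Cfsg.Agent.Lib.SL2Mat Cfsg.Agent.Cit.HexBase
  Cfsg.Agent.TitsThree.RankTwoIdx Cfsg.Agent.TitsThree.RankTwoRGD Cfsg.Agent.Cit.HexBase.HexGrp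

universe u

variable {E : Type*} [Field E] {σ : E ≃+* E} {L : Type u} [Group L] (c : HexGrp σ L)

/-! ### The centre of the positive part -/

theorem mem_sg {s : Finset (ZMod (2 * 6))} {k : ZMod (2 * 6)} (hk : k ∈ s) {g : L} (hg : g ∈ c.X k) : g ∈ Sg c.X s :=
  X_le_Sg hk hg

/-- the order `6 1 5 3 2 4` -/
theorem exists_prod' {g : L} (hg : g ∈ Sg c.X Pos) : ∃ a b d e f t : E, σ a = a ∧ σ f = f ∧ σ t = t ∧
    g = c.x6 a * c.x1 b * c.x5 d * c.x3 e * c.x2 f * c.x4 t := by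
  have e1 : (Pos : Finset (ZMod (2 * 6))) = insert 6 {1, 2, 3, 4, 5} := by decide
  rw [e1] at hg
  obtain ⟨a6, h6, v1, hv1, rfl⟩ := c.exists_mul (by decide +kernel) hg
  obtain ⟨a1, h1, v2, hv2, rfl⟩ := c.exists_mul (k := 1) (s := {2, 3, 4, 5}) (by decide +kernel) hv1
  have e2 : ({2, 3, 4, 5} : Finset (ZMod (2 * 6))) = insert 5 {2, 3, 4} := by decide
  rw [e2] at hv2
  obtain ⟨a5, h5, v3, hv3, rfl⟩ := c.exists_mul (k := 5) (s := {2, 3, 4}) (by decide +kernel) hv2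
  obtain ⟨a2, h2, v4, hv4, rfl⟩ := c.exists_mul (k := 2) (s := {3, 4}) (by decide +kernel) hv3
  obtain ⟨a3, h3, v5, hv5, rfl⟩ := c.exists_mul (k := 3) (s := {4}) (by decide +kernel) hv4
  have h4 : v5 ∈ c.X 4 := by
    have : Sg c.X {4} ≤ c.X 4 := Sg_le fun k hk => by rw [Finset.mem_singleton.1 hk]
    exact this hv5
  obtain ⟨b1, rfl⟩ := (c.par.mem1 _).1 h1
  obtain ⟨b2, f2, rfl⟩ := (c.par.mem2 _).1 h2
  obtain ⟨b3, rfl⟩ := (c.par.mem3 _).1 h3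
  obtain ⟨b4, f4, rfl⟩ := (c.par.mem4 _).1 h4
  obtain ⟨b5, rfl⟩ := (c.par.mem5 _).1 h5
  obtain ⟨b6, f6, rfl⟩ := (c.par.mem6 _).1 h6
  have h23 := H240.HexZ.m23 c.par.rel f2 b3
  exact ⟨b6, b1, b5, b3, b2, b4, f6, f2, f4, by simp only [mul_assoc]; rw [← mul_assoc (c.x2 b2), h23, mul_assoc]⟩

theorem uniq' {a b d e f t a' b' d' e' f' t' : E} (ha : σ a = a) (ha' : σ a' = a') (hf : σ f = f) (hf' : σ f' = f')
    (ht : σ t = t) (ht' : σ t' = t')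
    (h : c.x6 a * c.x1 b * c.x5 d * c.x3 e * c.x2 f * c.x4 t =
      c.x6 a' * c.x1 b' * c.x5 d' * c.x3 e' * c.x2 f' * c.x4 t') :
    a = a' ∧ b = b' ∧ d = d' ∧ e = e' ∧ f = f' ∧ t = t' := by
  have m : ∀ {s : Finset (ZMod (2 * 6))} {k : ZMod (2 * 6)}, k ∈ s → ∀ {g : L}, g ∈ c.X k → g ∈ Sg c.X s :=
    fun hk g hg => X_le_Sg hk hg
  have e1 : c.x6 a * (c.x1 b * (c.x5 d * (c.x3 e * (c.x2 f * c.x4 t)))) =
      c.x6 a' * (c.x1 b' * (c.x5 d' * (c.x3 e' * (c.x2 f' * c.x4 t')))) := by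
    simpa only [mul_assoc] using h
  obtain ⟨r6, e2⟩ := c.peel (k := 6) (s := {1, 2, 3, 4, 5}) (by decide +kernel) (c.mem6 ha)
    (mul_mem (m (by decide) (c.mem1 _)) (mul_mem (m (by decide) (c.mem5 _)) (mul_mem (m (by decide) (c.mem3 _))
      (mul_mem (m (by decide) (c.mem2 hf)) (m (by decide) (c.mem4 ht)))))) (c.mem6 ha')
    (mul_mem (m (by decide) (c.mem1 _)) (mul_mem (m (by decide) (c.mem5 _)) (mul_mem (m (by decide) (c.mem3 _))
      (mul_mem (m (by decide) (c.mem2 hf')) (m (by decide) (c.mem4 ht')))))) e1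
  obtain ⟨r1, e3⟩ := c.peel (k := 1) (s := {2, 3, 4, 5}) (by decide +kernel) (c.mem1 _)
    (mul_mem (m (by decide) (c.mem5 _)) (mul_mem (m (by decide) (c.mem3 _))
      (mul_mem (m (by decide) (c.mem2 hf)) (m (by decide) (c.mem4 ht))))) (c.mem1 _)
    (mul_mem (m (by decide) (c.mem5 _)) (mul_mem (m (by decide) (c.mem3 _))
      (mul_mem (m (by decide) (c.mem2 hf')) (m (by decide) (c.mem4 ht'))))) e2
  obtain ⟨r5, e4⟩ := c.peel (k := 5) (s := {2, 3, 4}) (by decide +kernel) (c.mem5 _)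
    (mul_mem (m (by decide) (c.mem3 _))
      (mul_mem (m (by decide) (c.mem2 hf)) (m (by decide) (c.mem4 ht)))) (c.mem5 _)
    (mul_mem (m (by decide) (c.mem3 _))
      (mul_mem (m (by decide) (c.mem2 hf')) (m (by decide) (c.mem4 ht')))) e3
  rw [← mul_assoc, ← H240.HexZ.m23 c.par.rel hf e, ← mul_assoc (c.x3 e'), ← H240.HexZ.m23 c.par.rel hf' e', mul_assoc,
    mul_assoc] at e4
  obtain ⟨r2, e5⟩ := c.peel (k := 2) (s := {3, 4}) (by decide +kernel) (c.mem2 hf)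
    (mul_mem (m (by decide) (c.mem3 _)) (m (by decide) (c.mem4 ht))) (c.mem2 hf')
    (mul_mem (m (by decide) (c.mem3 _)) (m (by decide) (c.mem4 ht'))) e4
  obtain ⟨r3, r4⟩ := c.peel (k := 3) (s := {4}) (by decide +kernel) (c.mem3 _) (m (by decide) (c.mem4 ht))
    (c.mem3 _) (m (by decide) (c.mem4 ht')) e5
  exact ⟨c.x6_inj ha ha' r6, c.x1_inj r1, c.x5_inj r5, c.x3_inj r3, c.x2_inj hf hf' r2, c.x4_inj ht ht' r4⟩

/-- **The centre of the positive part.** -/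
theorem center_pos (hnd : ∀ a : E, a ≠ 0 → ∃ b, trc σ a b ≠ 0) {g : L} (hg : g ∈ Sg c.X Pos)
    (hc : ∀ u ∈ Sg c.X Pos, g * u = u * g) : g ∈ c.X 4 := by
  obtain ⟨a, b, d, e, f, t, ha, hf, ht, rfl⟩ := exists_prod' c hg
  have h := H240.HexZ.center_eq c.par.rel
    (fun a b c_1 d e f a' b' c' d' e' f' h1 h2 h3 h4 h5 h6 h7 => uniq' c h1 h2 h3 h4 h5 h6 h7) hnd
    (a := a) (b := b) (c := d) (d := e) (e := f) (f := t) ha hf ht (fun t => hc _ (mem_sg c (by decide) (c.mem1 t)))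
    (fun t => hc _ (mem_sg c (by decide) (c.mem3 t))) (hc _ (mem_sg c (by decide) (c.mem6 (map_one σ))))
  rw [h]
  exact c.mem4 ht

/-- `K 1 ∩ Q 4 = 1` -/
theorem K1_inf_Q4 [Finite E] (h2 : (2 : E) ≠ 0) {g : L} (h1 : g ∈ c.K1) (h4 : g ∈ c.Q4) : g = 1 := by
  obtain ⟨x, rfl⟩ := h1
  obtain ⟨a, ha, b, hb, e⟩ := c.fix_z h2 (c.Q4_le_Pos h4) (c.z_pb x)
  have hb4 : b ∈ c.Q4 := X_le_Sg (by decide) hb
  have ha4 : a ∈ Sg c.X {2, 3, 4, 5, 6} := by
    have : a = c.pb x * b⁻¹ := by rw [e]; group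
    rw [this]
    exact mul_mem h4 (inv_mem hb4)
  have ha1 : a = 1 := c.eq_one_of_mem (k := 1) (s := {2, 3, 4, 5, 6}) (by decide +kernel) ha ha4
  rw [ha1, one_mul] at e
  obtain ⟨t, ht⟩ := c.mem_X4.1 hb
  rcases c.eq_of_pb_eq_p4 (y := up t) (e.trans ht.symm) with h | h
  · exact h
  · exfalso
    rw [h] at e
    obtain ⟨s, hs, hs'⟩ := (c.par.mem4 _).1 hb
    have h3 : c.x4 (s + s) = c.x4 0 := by
      rw [c.x4_add hs hs, hs', ← e, c.z_sq, c.x4_zero]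
    have h5 := c.x4_inj (by rw [map_add, hs]) (map_zero σ) h3
    have h6 : s = 0 := by
      have : (2 : E) * s = 0 := by linear_combination h5
      exact (mul_eq_zero.1 this).resolve_left h2
    rw [h6, c.x4_zero, ← e] at hs'
    exact c.z_ne h2 hs'.symm

/-- **An element of odd order commuting with the positive part is in `X 4`.** -/
theorem cent_pos [Finite E] (h2 : (2 : E) ≠ 0) (hnd : ∀ a : E, a ≠ 0 → ∃ b, trc σ a b ≠ 0) {g : L}
    (hodd : Odd (orderOf g)) (hc : ∀ u ∈ Sg c.X Pos, g * u = u * g) : g ∈ c.X 4 := by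
  obtain ⟨q, hq, k, hk, hgq⟩ := c.centralizer_X4 h2 (fun x hx => hc x (mem_sg c (by decide) hx))
  obtain ⟨x, rfl⟩ := hk
  have hx : ∀ a : E, x * up a = up a * x := by
    intro a
    have h1 := hc (c.pb (up a)) (by rw [c.pb_up]; exact mem_sg c (by decide) (c.mem1 a))
    have h3 : c.pb (x * up a * x⁻¹ * (up a)⁻¹) = q⁻¹ * (c.pb (up a) * q * (c.pb (up a))⁻¹) := by
      rw [map_mul, map_mul, map_mul, map_inv, map_inv]
      rw [hgq] at h1
      calc c.pb x * c.pb (up a) * (c.pb x)⁻¹ * (c.pb (up a))⁻¹ =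
          q⁻¹ * (q * c.pb x * c.pb (up a)) * (c.pb x)⁻¹ * (c.pb (up a))⁻¹ := by group
        _ = _ := by rw [h1]; group
    have h4 : c.pb (x * up a * x⁻¹ * (up a)⁻¹) = 1 :=
      K1_inf_Q4 c h2 ⟨_, rfl⟩ (by
        rw [h3]
        exact mul_mem (inv_mem hq) (c.K1_Q4 ⟨_, rfl⟩ hq))
    have h5 : x * up a * x⁻¹ * (up a)⁻¹ = 1 := c.pb_inj h2 (h4.trans (map_one c.pb).symm)
    have h6 : x * up a * x⁻¹ = up a := mul_inv_eq_one.1 h5
    rwa [mul_inv_eq_iff_eq_mul] at h6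
  -- `k ^ 2` is in `X 1`
  have h10 : ent x 1 0 = 0 := by
    have h := congrArg (fun y => ent y 0 0) (hx 1)
    simp [ent_mul] at h
    exact h
  have h00 : ent x 0 0 = ent x 1 1 := by
    have h := congrArg (fun y => ent y 0 1) (hx 1)
    simp [ent_mul] at h
    linear_combination h
  have hd := det_eq x
  rw [h10, h00] at hd
  have hxx : x * x = up (2 * ent x 0 0 * ent x 0 1) := by
    refine ext_ent ?_ ?_ ?_ ?_
    · simp [ent_mul, h10, h00]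
      linear_combination hd
    · simp [ent_mul, h10, h00]
      ring
    · simp [ent_mul, h10]
    · simp [ent_mul, h10]
      linear_combination hd
  have hg2 : g * g ∈ Sg c.X Pos := by
    have e : g * g = q * (c.pb x * q * (c.pb x)⁻¹) * (c.pb (x * x)) := by
      rw [hgq, map_mul]
      group
    rw [e, hxx, c.pb_up]
    exact mul_mem (mul_mem (c.Q4_le_Pos hq) (c.Q4_le_Pos (c.K1_Q4 ⟨_, rfl⟩ hq))) (mem_sg c (by decide) (c.mem1 _))
  have h4 : g * g ∈ c.X 4 := by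
    refine center_pos c hnd hg2 fun u hu => ?_
    rw [mul_assoc, hc u hu, ← mul_assoc, hc u hu, mul_assoc]
  obtain ⟨k, hk⟩ := hodd
  have h5 : g = (g * g) ^ (k + 1) := by
    rw [← pow_two, ← pow_mul, show 2 * (k + 1) = orderOf g + 1 by omega, pow_succ, pow_orderOf_eq_one, one_mul]
  rw [h5]
  exact pow_mem h4 _

/-! ### The centralizer of a torus element -/

/-- the Bruhat factors of an element commuting with a torus element -/
theorem bruhat_comm [Finite E] (h2 : (2 : E) ≠ 0) {y : L} (hy : y ∈ c.T0) {g : L} (hg : g * y = y * g) :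
    ∃ u ∈ Sg c.X Pos, ∃ w f, c.IsRep w f ∧ ∃ h ∈ c.T0, ∃ v ∈ Sg c.X Pos, g = u * w * h * v ∧ y * u = u * y ∧
      y * v = v * y := by
  obtain ⟨u, hu, w, f, hw, h, hh, t, ht, hft, v, hv, rfl⟩ := c.bruhat h2 g
  refine ⟨u, hu, w, f, hw, h, hh, v, Sg_mono ht hv, rfl, ?_⟩
  have hwz : w * y * w⁻¹ ∈ c.T0 := hw.conj hy
  have hhz : h * y = y * h := c.T0_comm hh hy
  have hv1 : v * (y * v⁻¹ * y⁻¹) ∈ Sg c.X t := mul_mem hv (c.T0_conj hy (inv_mem hv))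
  have hu1 : u⁻¹ * (y * u * y⁻¹) ∈ Sg c.X Pos := mul_mem (inv_mem hu) (c.T0_conj hy hu)
  obtain ⟨τ, hτ⟩ : ∃ τ, τ = w * y * w⁻¹ * y⁻¹ := ⟨_, rfl⟩
  have hτT : τ ∈ c.T0 := by rw [hτ]; exact mul_mem hwz (inv_mem hy)
  have hy' : w * h * (v * (y * v⁻¹ * y⁻¹)) * (w * h)⁻¹ ∈ Sg c.X Neg := by
    have h1 := conj_Sg hw.maps hft (c.T0_conj hh hv1)
    convert h1 using 1
    group
  have e0 : w * h * y * (w * h)⁻¹ = τ * y := by
    rw [hτ]
    calc w * h * y * (w * h)⁻¹ = w * (h * y) * h⁻¹ * w⁻¹ := by group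
      _ = w * y * w⁻¹ * y⁻¹ * y := by rw [hhz]; group
  have e1 : u⁻¹ * (y * u * y⁻¹) = (w * h * (v * (y * v⁻¹ * y⁻¹)) * (w * h)⁻¹) * τ := by
    have e2 : y * u = u * w * h * v * y * v⁻¹ * (w * h)⁻¹ := by
      calc y * u = (y * (u * w * h * v)) * v⁻¹ * (w * h)⁻¹ := by group
        _ = _ := by rw [← hg]
    calc u⁻¹ * (y * u * y⁻¹) = u⁻¹ * (u * w * h * v * y * v⁻¹ * (w * h)⁻¹) * y⁻¹ := by rw [← e2]; group
      _ = (w * h * (v * (y * v⁻¹ * y⁻¹)) * (w * h)⁻¹) * (w * h * y * (w * h)⁻¹) * y⁻¹ := by group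
      _ = _ := by rw [e0]; group
  obtain ⟨s, hs, r, hr, hτ'⟩ := c.exists_of_mem_T0 h2 hτT
  have hy'' : τ⁻¹ * (w * h * (v * (y * v⁻¹ * y⁻¹)) * (w * h)⁻¹) * τ ∈ Sg c.X Neg := by
    have := c.T0_conj (inv_mem hτT) hy'
    rwa [inv_inv] at this
  obtain ⟨k1, k2⟩ := c.tri _ hu1 _ hy'' s hs r hr (by rw [← hτ', e1]; group)
  constructor
  · have : y * u * y⁻¹ = u := (inv_mul_eq_one.1 k1).symm
    rw [mul_inv_eq_iff_eq_mul] at this
    exact this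
  · have hv2 : v * (y * v⁻¹ * y⁻¹) = 1 := by
      have h3 : w * h * (v * (y * v⁻¹ * y⁻¹)) * (w * h)⁻¹ = 1 := by
        have : τ⁻¹ * (w * h * (v * (y * v⁻¹ * y⁻¹)) * (w * h)⁻¹) * τ = τ⁻¹ * 1 * τ := by rw [k2]; group
        exact mul_left_cancel (mul_right_cancel this)
      have : w * h * (v * (y * v⁻¹ * y⁻¹)) = w * h * 1 := by rw [mul_one]; exact mul_inv_eq_one.1 h3
      exact mul_left_cancel this
    have : v * y * v⁻¹ * y⁻¹ = 1 := by rw [← hv2]; group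
    have h3 : v * y * v⁻¹ = y := mul_inv_eq_one.1 this
    rw [mul_inv_eq_iff_eq_mul] at h3
    exact h3.symm

section y

variable {y : L} {w : E} (hy : c.Act y w 1) (hn : nrm σ w = 1) (hw : w ≠ 1)

include hn in
omit c in
theorem mul_shp : w * shp σ w = 1 := by
  rw [← hn]
  unfold nrm shp
  ring

include hy hn hw

/-- the fixed points of `y` on the positive part -/
theorem fix_y {g : L} (hg : g ∈ Sg c.X Pos) (h : y * g = g * y) :
    ∃ a b d : ↥(fx σ), g = c.x2 a * c.x4 b * c.x6 d := by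
  obtain ⟨a1, h1, a2, h2', a3, h3, a4, h4, a5, h5, a6, h6, rfl⟩ := c.exists_prod hg
  obtain ⟨b1, rfl⟩ := (c.par.mem1 _).1 h1
  obtain ⟨b2, f2, rfl⟩ := (c.par.mem2 _).1 h2'
  obtain ⟨b3, rfl⟩ := (c.par.mem3 _).1 h3
  obtain ⟨b4, f4, rfl⟩ := (c.par.mem4 _).1 h4
  obtain ⟨b5, rfl⟩ := (c.par.mem5 _).1 h5
  obtain ⟨b6, f6, rfl⟩ := (c.par.mem6 _).1 h6
  have e : c.x1 (w * b1) * c.x2 b2 * c.x3 (shp σ w * b3) * c.x4 b4 * c.x5 (w * b5) * c.x6 b6 =
      c.x1 b1 * c.x2 b2 * c.x3 b3 * c.x4 b4 * c.x5 b5 * c.x6 b6 := by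
    calc _ = (y * c.x1 b1 * y⁻¹) * (y * c.x2 b2 * y⁻¹) * (y * c.x3 b3 * y⁻¹) * (y * c.x4 b4 * y⁻¹) *
          (y * c.x5 b5 * y⁻¹) * (y * c.x6 b6 * y⁻¹) := by
          rw [hy.a1, hy.a2 _ f2, hy.a3, hy.a4 _ f4, hy.a5, hy.a6 _ f6, hn]
          simp only [one_mul, one_pow]
      _ = y * (c.x1 b1 * c.x2 b2 * c.x3 b3 * c.x4 b4 * c.x5 b5 * c.x6 b6) * y⁻¹ := by group
      _ = _ := by rw [h]; group
  obtain ⟨e1, -, e3, -, e5, -⟩ := c.uniq16 (c.mem1 _) (c.mem2 f2) (c.mem3 _) (c.mem4 f4) (c.mem5 _)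
    (c.mem6 f6) (c.mem1 _) (c.mem2 f2) (c.mem3 _) (c.mem4 f4) (c.mem5 _) (c.mem6 f6) e
  have hz : ∀ {k b : E}, k ≠ 1 → k * b = b → b = 0 := by
    intro k b hk h
    have : (k - 1) * b = 0 := by linear_combination h
    exact (mul_eq_zero.1 this).resolve_left (sub_ne_zero.2 hk)
  have hs : shp σ w ≠ 1 := by
    intro h
    have := mul_shp (σ := σ) hn
    rw [h, mul_one] at this
    exact hw this
  have k1 := hz hw (c.x1_inj e1)
  have k3 := hz hs (c.x3_inj e3)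
  have k5 := hz hw (c.x5_inj e5)
  refine ⟨⟨b2, f2⟩, ⟨b4, f4⟩, ⟨b6, f6⟩, ?_⟩
  rw [k1, k3, k5, c.x1_zero, c.x3_zero, c.x5_zero, mul_one, mul_one, one_mul]

/-- **The elements commuting with `y`.** -/
theorem form_y [Finite E] (h2 : (2 : E) ≠ 0) {g : L} (hg : g * y = y * g) :
    ∃ a b d a' b' d' : ↥(fx σ), ∃ n f, c.IsRep n f ∧ ∃ h ∈ c.T0,
      g = c.x2 a * c.x4 b * c.x6 d * n * h * (c.x2 a' * c.x4 b' * c.x6 d') ∧
      y * (c.x2 a' * c.x4 b' * c.x6 d') = (c.x2 a' * c.x4 b' * c.x6 d') * y := by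
  obtain ⟨u, hu, n, f, hnf, h, hh, v, hv, e, e1, e2⟩ := bruhat_comm c h2 ⟨_, _, hy⟩ hg
  obtain ⟨a, b, d, rfl⟩ := fix_y c hy hn hw hu e1
  obtain ⟨a', b', d', rfl⟩ := fix_y c hy hn hw hv e2
  exact ⟨a, b, d, a', b', d', n, f, hnf, h, hh, e, e2⟩

omit hn hw in
theorem act_pow (k : ℕ) : c.Act (y ^ k) (w ^ k) 1 := by
  induction k with
  | zero => exact c.act_one.congr (by simp) (by simp) rfl
  | succ k ih => exact (ih.mul hy).congr (by rw [pow_succ]) (by rw [pow_succ]) (by simp)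

end y

section M

variable {M : Subgroup L} (ha : ∀ x, c.pa x ∈ M) (hb : ∀ x : SL2 ↥(fx σ), c.pb (Matrix.SpecialLinearGroup.map (fx σ).subtype x) ∈ M)

include ha in
theorem x6_mem (t : ↥(fx σ)) : c.x6 t ∈ M := by
  rw [← c.pa_up]
  exact ha _

include ha in
theorem n6_mem : c.n6 ∈ M := ha _

include hb in
theorem n1_mem : c.n1 ∈ M := by
  have h := hb (wm 1 one_ne_zero)
  have e : Matrix.SpecialLinearGroup.map (fx σ).subtype (wm 1 one_ne_zero) = wm (1 : E) one_ne_zero := by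
    refine ext_ent ?_ ?_ ?_ ?_
    · exact map_zero (fx σ).subtype
    · exact map_one (fx σ).subtype
    · show (fx σ).subtype (-(1 : ↥(fx σ))⁻¹) = -(1 : E)⁻¹
      rw [map_neg, map_inv₀, map_one]
    · exact map_zero (fx σ).subtype
  rw [e] at h
  exact h

include ha hb

theorem x2_mem (t : ↥(fx σ)) : c.x2 t ∈ M := by
  have h := c.n1_x6 ((-t : ↥(fx σ)) : E) (-t : ↥(fx σ)).2
  have e : -(((-t : ↥(fx σ)) : E)) = (t : E) := by
    rw [show (((-t : ↥(fx σ)) : E)) = -(t : E) from rfl, neg_neg]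
  rw [e] at h
  rw [← h]
  exact mul_mem (mul_mem (n1_mem c hb) (x6_mem c ha _)) (inv_mem (n1_mem c hb))

theorem x4_mem (t : ↥(fx σ)) : c.x4 t ∈ M := by
  obtain ⟨s, hs⟩ := c.mem_X4.1 (c.mem4 t.2)
  rw [← hs, c.p4_apply]
  exact mul_mem (mul_mem (mul_mem (n6_mem c ha) (n1_mem c hb)) (ha _))
    (inv_mem (mul_mem (n6_mem c ha) (n1_mem c hb)))

theorem alt_mem (r : ℕ) : alt c.n1 c.n6 r ∈ M ∧ alt c.n6 c.n1 r ∈ M := by
  induction r with
  | zero => exact ⟨one_mem _, one_mem _⟩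
  | succ r ih => exact ⟨mul_mem (n1_mem c hb) ih.2, mul_mem (n6_mem c ha) ih.1⟩

theorem rep_mem {n : L} {f : ZMod (2 * 6) → ZMod (2 * 6)} (h : c.IsRep n f) : n ∈ M := by
  obtain ⟨r, _, ⟨rfl, _⟩ | ⟨rfl, _⟩⟩ := h
  · exact (alt_mem c ha hb r).1
  · exact (alt_mem c ha hb r).2

/-- the torus over the fixed field -/
theorem tor_mem {h : L} {c1 c6 : E} (hA : c.Act h c1 c6) (h1 : σ c1 = c1) (h6 : σ c6 = c6) : h ∈ M := by
  have n1' := hA.ne1
  have n6' := hA.ne6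
  let d1 : ↥(fx σ) := ⟨c1, h1⟩
  let d6 : ↥(fx σ) := ⟨c6, h6⟩
  have hd1 : d1 ≠ 0 := fun h => n1' (congrArg Subtype.val h)
  have hd6 : d6 ≠ 0 := fun h => n6' (congrArg Subtype.val h)
  have hs : d6 * d1 ^ 2 ≠ 0 := mul_ne_zero hd6 (pow_ne_zero _ hd1)
  have ht : d6 ^ 2 * d1 ^ 3 ≠ 0 := mul_ne_zero (pow_ne_zero _ hd6) (pow_ne_zero _ hd1)
  have hs' : c6 * c1 ^ 2 ≠ 0 := mul_ne_zero n6' (pow_ne_zero _ n1')
  have hB := (c.act_b (c6 * c1 ^ 2) hs').mul (c.act_a (d6 ^ 2 * d1 ^ 3) ht)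
  have hnr : nrm σ (c6 * c1 ^ 2) = (c6 * c1 ^ 2) ^ 3 :=
    nrm_of_fix (by rw [map_mul, map_pow, h1, h6])
  have hC : c.Act (c.pb (dg (c6 * c1 ^ 2) hs') * c.pa (dg (d6 ^ 2 * d1 ^ 3) ht)) c1 c6 := by
    refine hB.congr rfl ?_ ?_
    · show (c6 * c1 ^ 2) ^ 2 * (c6 ^ 2 * c1 ^ 3)⁻¹ = c1
      field_simp
    · show (nrm σ (c6 * c1 ^ 2))⁻¹ * (c6 ^ 2 * c1 ^ 3) ^ 2 = c6
      rw [hnr]
      field_simp
  rw [hA.unique hC]
  refine mul_mem ?_ (ha _)
  have h := hb (dg (d6 * d1 ^ 2) hs)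
  have e : Matrix.SpecialLinearGroup.map (fx σ).subtype (dg (d6 * d1 ^ 2) hs) = dg (c6 * c1 ^ 2) hs' := by
    refine ext_ent ?_ ?_ ?_ ?_
    · rfl
    · exact map_zero (fx σ).subtype
    · exact map_zero (fx σ).subtype
    · show (fx σ).subtype (d6 * d1 ^ 2)⁻¹ = (c6 * c1 ^ 2)⁻¹
      rw [map_inv₀]
      rfl
  rw [e] at h
  exact h

/-- **Elements commuting with `y` are in `M ⟨y⟩`.** -/
theorem cent_y_mem [Fintype E] (hE : Fintype.card E = 27) (h2 : (2 : E) ≠ 0) {y : L} {w : E} (hy : c.Act y w 1)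
    (hn : nrm σ w = 1) (hw : IsPrimitiveRoot w 13) {g : L} (hg : g * y = y * g) : ∃ i, g * y ^ i ∈ M := by
  have hw1 : w ≠ 1 := hw.ne_one (by norm_num)
  obtain ⟨a, b, d, a', b', d', n, f, hnf, h, hh, e, e2⟩ := form_y c hy hn hw1 h2 hg
  obtain ⟨c1, c6, hA⟩ := hh
  have hc1 := hA.ne1
  have h26 : c1 ^ 26 = 1 := by
    have := FiniteField.pow_card_sub_one_eq_one c1 hc1
    rwa [hE] at this
  obtain ⟨i, hi⟩ : ∃ i, σ (c1 * w ^ i) = c1 * w ^ i := by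
    have h13 : c1 ^ 13 = 1 ∨ c1 ^ 13 = -1 := by
      have h1 : (c1 ^ 13 - 1) * (c1 ^ 13 + 1) = 0 := by linear_combination h26
      rcases mul_eq_zero.1 h1 with h | h
      · exact Or.inl (sub_eq_zero.1 h)
      · exact Or.inr (eq_neg_of_add_eq_zero_left h)
    rcases h13 with h13 | h13
    · obtain ⟨i, hi, e⟩ := hw.eq_pow_of_pow_eq_one h13
      refine ⟨13 - i, ?_⟩
      rw [← e, ← pow_add, Nat.add_sub_cancel' hi.le, hw.pow_eq_one, map_one]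
    · have h14 : (-c1) ^ 13 = 1 := by rw [Odd.neg_pow (by decide), h13, neg_neg]
      obtain ⟨i, hi, e⟩ := hw.eq_pow_of_pow_eq_one h14
      refine ⟨13 - i, ?_⟩
      have e3 : c1 = -(w ^ i) := by rw [e, neg_neg]
      rw [e3, neg_mul, ← pow_add, Nat.add_sub_cancel' hi.le, hw.pow_eq_one, map_neg, map_one]
  refine ⟨i, ?_⟩
  have hB := hA.mul (act_pow c hy i)
  have h3 : h * y ^ i ∈ M := by
    refine tor_mem c ha hb hB hi ?_
    rw [mul_one]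
    exact hA.fix
  have e4 : (c.x2 a' * c.x4 b' * c.x6 d') * y ^ i = y ^ i * (c.x2 a' * c.x4 b' * c.x6 d') := by
    have : Commute y (c.x2 a' * c.x4 b' * c.x6 d') := e2
    exact (this.pow_left i).eq.symm
  have e5 : g * y ^ i = c.x2 a * c.x4 b * c.x6 d * n * (h * y ^ i) * (c.x2 a' * c.x4 b' * c.x6 d') := by
    rw [e, mul_assoc _ _ (y ^ i), e4]
    group
  rw [e5]
  exact mul_mem (mul_mem (mul_mem (mul_mem (mul_mem (x2_mem c ha hb _) (x4_mem c ha hb _)) (x6_mem c ha _))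
    (rep_mem c ha hb hnf)) h3) (mul_mem (mul_mem (x2_mem c ha hb _) (x4_mem c ha hb _)) (x6_mem c ha _))

end M

end Cfsg.Agent.H922.TD
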