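import Cfsg.Agent.H501.PSq.TdSmall
import Cfsg.Agent.H65.Ore.Prd
import Cfsg.Agent.H78.Pw.Base

/-!
# `³D₄(3)`: elements with small centralizers are products of two elements of order 73 (helper922, S2465)

The characters not vanishing on an element `x` of order 73: degrees 1, 531441, 10584, 9126 (value `± 1`) and 18 of degree
529984.  `∑ |χ(x)|⁴ / χ(1)² - 1 ≤ 1 / 531441² + 1 / 10584² + 1 / 9126² + 69² / 529984² < 3.8e-8`.
-/

set_option autoImplicit false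
set_option linter.unusedSectionVars false

open Cfsg Cfsg.Lie

namespace Cfsg.Agent.H922.TD

open Cfsg.Agent.H33 Cfsg.Agent.Nodes
open Cfsg.Agent.Characters Cfsg.Agent.Characters.CCBasic Cfsg.Agent.Characters.CCEstimates
  Cfsg.Agent.Characters.CCValues Cfsg.Agent.H678.CCExact Cfsg.Agent.H501.PSq

universe u

/-- the finite check -/
theorem chk : ∀ i < 7, ∀ j < 13, ∀ k < 3, ∀ l < 3, ∀ e ∈ [(1 : ℤ), -1],
    ((2 : ℤ) ^ i * 3 ^ j * 7 ^ k * 13 ^ l - 4 * e) % 73 = 0 →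
    (281655226944 : ℤ) % (e * (2 ^ i * 3 ^ j * 7 ^ k * 13 ^ l) - 520858) = 0 →
    e * ((2 : ℤ) ^ i * 3 ^ j * 7 ^ k * 13 ^ l) = 529984 := by
  decide +kernel

section

variable {K : Type} [Field K] [Fintype K]

/-- the CC-subgroup of order 73 -/
theorem exists_cc (hK : Fintype.card K = 3 ^ 3) : ∃ A : Subgroup ↥(twistedD4 K 3), Nat.card A = 73 ∧ IsCC A ∧ len A = 4 := by
  classical
  have hq : IsPrimePow 3 := Nat.prime_three.isPrimePow
  obtain ⟨p, hch⟩ := CharP.exists K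
  have hpf : Fact p.Prime := ⟨CharP.char_is_prime K p⟩
  have hfin : Finite ↥(twistedD4 K 3) := inferInstance
  have := Fintype.ofFinite ↥(twistedD4 K 3)
  obtain ⟨x0, hx0, hx0c, -⟩ := H83.TorD4.exists_x0 hq hK p
  have hcard : Nat.card ↥(Subgroup.zpowers x0) = 73 := by rw [Nat.card_zpowers, hx0]; norm_num
  have hA : IsCC (Subgroup.zpowers x0) := by
    refine ⟨fun h => ?_, hx0c⟩
    rw [h, Subgroup.card_bot] at hcard
    omega
  have h73 : Nat.Prime 73 := by norm_num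
  have hidx : (Subgroup.zpowers x0).index ≡ 4 [MOD 73] := by
    have h1 := (Subgroup.zpowers x0).card_mul_index
    rw [hcard, S1067.result hq hK] at h1
    have h2 : (Subgroup.zpowers x0).index = 281655226944 := by
      norm_num at h1
      omega
    rw [h2]
    decide
  have hN := H83.Eight.CC.card_normalizer hA inferInstance h73 (by rw [hcard]) hidx (by norm_num) (by norm_num)
  have hlen : len (Subgroup.zpowers x0) = 4 := by
    have h1 := len_mul_card (Subgroup.zpowers x0)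
    rw [hN] at h1
    exact Nat.eq_of_mul_eq_mul_right Nat.card_pos h1
  exact ⟨_, hcard, hA, hlen⟩


theorem sum_sq_le {ι : Type*} (s : Finset ι) (a : ι → ℝ) (h : ∀ i ∈ s, 0 ≤ a i) :
    ∑ i ∈ s, a i ^ 2 ≤ (∑ i ∈ s, a i) ^ 2 := by
  classical
  induction s using Finset.induction_on with
  | empty => simp
  | insert i s hi ih =>
    rw [Finset.sum_insert hi, Finset.sum_insert hi]
    have h1 := ih fun j hj => h j (Finset.mem_insert_of_mem hj)
    have h2 : 0 ≤ a i := h i (Finset.mem_insert_self _ _)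
    have h3 : 0 ≤ ∑ j ∈ s, a j := Finset.sum_nonneg fun j hj => h j (Finset.mem_insert_of_mem hj)
    nlinarith

/-- **The weight of an element of order 73.** -/
theorem exists_weight (hK : Fintype.card K = 3 ^ 3) [Fintype (IrrCharacter ↥(twistedD4 K 3))] :
    ∃ x : ↥(twistedD4 K 3), orderOf x = 73 ∧ ∑ χ : IrrCharacter ↥(twistedD4 K 3),
      (‖(χ : ↥(twistedD4 K 3) → ℂ) x‖ * ‖(χ : ↥(twistedD4 K 3) → ℂ) x‖ / ‖(χ : ↥(twistedD4 K 3) → ℂ) 1‖) ^ 2 ≤
        1 + 38 / 10 ^ 9 := by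
  classical
  have hq : IsPrimePow 3 := Nat.prime_three.isPrimePow
  obtain ⟨A, hA73, hA, hlen⟩ := exists_cc hK
  set G := ↥(twistedD4 K 3) with hG
  have := Fintype.ofFinite G
  have hcG : Nat.card G = 20560831566912 := by rw [S1067.result hq hK]; norm_num
  obtain ⟨D⟩ := nonempty_ccData hA hlen (s := 18) (by rw [hA73]) (by norm_num)
  have hε := D.hε
  have hsq := D.sq
  have hsd := D.sd
  have hddvd := D.ddvd
  rw [hA73] at hddvd
  have hnn : 0 ≤ ∑ ψ : IrrCharacter G, D.f ψ ^ 2 := Finset.sum_nonneg fun _ _ => sq_nonneg _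
  push_cast at hsq hddvd hsd
  -- `c = 0`
  have hc0 : D.c = 0 := by
    have h1 : (18 : ℤ) * D.c ^ 2 ≤ 4 + 2 * D.ε * D.c := by linarith
    have h5 : D.c < 1 ∧ -1 < D.c := by
      rcases hε with h | h <;> rw [h] at h1 <;> constructor <;> nlinarith
    omega
  rw [hc0] at hsq hsd hddvd
  simp only [mul_zero, add_zero, ne_eq, OfNat.ofNat_ne_zero, not_false_eq_true, zero_pow] at hsq hsd hddvd
  -- the characters
  obtain ⟨χ₂, d2⟩ := H83.Eight.TwD4.st hq hK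
  obtain ⟨-, -, ⟨χ₃, d3⟩, -⟩ := H83.Eight.TwD4.unip hq hK (P := 73) (d2 := 15768) (d3 := 10584) (by norm_num)
    (by norm_num) (by norm_num)
  norm_num at d2 d3
  have hdeg1 : charDegree ((one G : IrrCharacter G) : G → ℂ) = 1 := by
    unfold charDegree
    rw [coe_one, Pi.one_apply]
    simp
  have hnR : ∀ χ : IrrCharacter G, ∀ e : ℤ, (e = 1 ∨ e = -1) →
      (73 : ℤ) ∣ charDegree (χ : G → ℂ) - e → χ ∉ D.R := by
    intro χ e he hdv hR
    rw [D.deg χ hR] at hdv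
    have h1 := dvd_sub hdv hddvd
    rw [show (D.d : ℤ) - e - ((D.d : ℤ) - D.ε * 4) = D.ε * 4 - e by ring] at h1
    rcases hε with h | h <;> rcases he with h'' | h'' <;> rw [h, h''] at h1 <;> norm_num at h1
  have hbig : ∀ χ : IrrCharacter G, D.f χ ^ 2 ≤ 4 := by
    intro χ
    have h1 : D.f χ ^ 2 ≤ ∑ ψ : IrrCharacter G, D.f ψ ^ 2 :=
      Finset.single_le_sum (f := fun ψ : IrrCharacter G => D.f ψ ^ 2) (fun _ _ => sq_nonneg _) (Finset.mem_univ χ)
    linarith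
  have hval : ∀ χ : IrrCharacter G, ∀ e : ℤ, (e = 1 ∨ e = -1) →
      (73 : ℤ) ∣ charDegree (χ : G → ℂ) - e → D.f χ = e := by
    intro χ e he hdv
    have h0 := D.dvd χ (hnR χ e he hdv)
    rw [hA73] at h0
    have h1 := dvd_sub hdv h0
    rw [sub_sub_sub_cancel_left] at h1
    have h2 := hbig χ
    have h5 : D.f χ ≤ 2 ∧ -2 ≤ D.f χ := by constructor <;> nlinarith
    have h6 : |D.f χ - e| < 73 := by
      rw [abs_lt]
      rcases he with h'' | h'' <;> rw [h''] <;> constructor <;> linarith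
    have h7 := Int.eq_zero_of_abs_lt_dvd h1 h6
    linarith
  have hf1 : D.f (one G) = 1 := hval _ 1 (Or.inl rfl) (by rw [hdeg1]; simp)
  have hf2 : D.f χ₂ = 1 := hval _ 1 (Or.inl rfl) (by rw [d2]; norm_num)
  have hf3 : D.f χ₃ = -1 := hval _ (-1) (Or.inr rfl) (by rw [d3]; norm_num)
  have n12 : one G ≠ χ₂ := by
    intro h
    rw [← h, hdeg1] at d2
    norm_num at d2
  have n13 : one G ≠ χ₃ := by
    intro h
    rw [← h, hf1] at hf3
    norm_num at hf3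
  have n23 : χ₂ ≠ χ₃ := by
    intro h
    rw [← h, hf2] at hf3
    norm_num at hf3
  let B : Finset (IrrCharacter G) := {one G, χ₂, χ₃}
  have hB : ∀ g : IrrCharacter G → ℤ, ∑ ψ : IrrCharacter G, g ψ = g (one G) + g χ₂ + g χ₃ + ∑ ψ ∈ Bᶜ, g ψ := by
    intro g
    rw [← Finset.sum_add_sum_compl B g, Finset.sum_insert (by simp [n12, n13]), Finset.sum_pair n23]
    ring
  have hsq' := hsq
  rw [hB, hf1, hf2, hf3] at hsq
  rw [hB (fun ψ => (charDegree (ψ : G → ℂ) : ℤ) * D.f ψ), hf1, hf2, hf3, hdeg1, d2, d3] at hsd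
  have hsum : ∑ ψ ∈ Bᶜ, D.f ψ ^ 2 = 1 := by linarith
  obtain ⟨ψ, hψB, hψ⟩ : ∃ ψ ∈ Bᶜ, D.f ψ ≠ 0 := by
    by_contra hcon
    push Not at hcon
    rw [Finset.sum_eq_zero fun ψ hψ => by rw [hcon ψ hψ]; ring] at hsum
    norm_num at hsum
  have hge : 1 ≤ D.f ψ ^ 2 := by
    have : 0 < D.f ψ ^ 2 := by positivity
    omega
  rw [← Finset.add_sum_erase _ _ hψB] at hsum
  have hnn3 : 0 ≤ ∑ ψ ∈ Bᶜ.erase ψ, D.f ψ ^ 2 := Finset.sum_nonneg fun _ _ => sq_nonneg _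
  have hz0 : ∑ ψ ∈ Bᶜ.erase ψ, D.f ψ ^ 2 = 0 := by linarith
  have hz : ∀ χ ∈ Bᶜ.erase ψ, D.f χ = 0 := by
    rw [Finset.sum_eq_zero_iff_of_nonneg (fun _ _ => sq_nonneg _)] at hz0
    intro χ hχ
    exact (pow_eq_zero_iff (two_ne_zero)).1 (hz0 χ hχ)
  have hf4 : D.f ψ ^ 2 = 1 := by linarith
  have hf4' : D.f ψ = 1 ∨ D.f ψ = -1 := mul_self_eq_one_iff.1 (by rw [← sq]; exact hf4)
  rw [← Finset.add_sum_erase _ _ hψB, Finset.sum_eq_zero fun χ hχ => by rw [hz χ hχ, mul_zero]] at hsd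
  have hψR : ψ ∉ D.R := fun h => hψ (D.hf0 ψ h)
  have hψdvd : (73 : ℤ) ∣ charDegree (ψ : G → ℂ) - D.f ψ := by
    have h0 := D.dvd ψ hψR
    rw [hA73] at h0
    exact h0
  -- the degrees
  have hRne : D.R.Nonempty := by
    rw [← Finset.card_pos, D.hcard]
    omega
  obtain ⟨ρ, hρ⟩ := hRne
  have hdG : D.d ∣ 20560831566912 := by
    rw [← D.deg ρ hρ, ← hcG]
    exact dvd_of_im ρ
  have hψG : charDegree (ψ : G → ℂ) ∣ 20560831566912 := by
    rw [← hcG]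
    exact dvd_of_im ψ
  have e1 : D.d ∣ 2 ^ 6 * 3 ^ 12 * 7 ^ 2 * 13 ^ 2 := by
    refine dvd_of_cong (P := 73) (m := D.ε * 4) (by norm_num) (by rcases hε with h | h <;> rw [h] <;> norm_num)
      (by rcases hε with h | h <;> rw [h] <;> norm_num) (hdG.trans (by norm_num)) hddvd
  have e2 : charDegree (ψ : G → ℂ) ∣ 2 ^ 6 * 3 ^ 12 * 7 ^ 2 * 13 ^ 2 := by
    refine dvd_of_cong (P := 73) (m := D.f ψ) (by norm_num) (by rcases hf4' with h | h <;> rw [h] <;> norm_num)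
      (by rcases hf4' with h | h <;> rw [h] <;> norm_num) (hψG.trans (by norm_num)) hψdvd
  have hrel : D.f ψ * charDegree (ψ : G → ℂ) = D.ε * D.d - 520858 := by
    push_cast at hsd
    linarith
  obtain ⟨hε1, hd⟩ : D.ε = 1 ∧ (D.d : ℤ) = 529984 := by
    obtain ⟨abc, l', habc, hl', hdabc⟩ := (Nat.dvd_mul).1 e1
    obtain ⟨ab, c, hab, hc, rfl⟩ := (Nat.dvd_mul).1 habc
    obtain ⟨a, b, ha, hb, rfl⟩ := (Nat.dvd_mul).1 hab
    obtain ⟨i, hi, rfl⟩ := (Nat.dvd_prime_pow Nat.prime_two).1 ha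
    obtain ⟨j, hj, rfl⟩ := (Nat.dvd_prime_pow Nat.prime_three).1 hb
    obtain ⟨k, hk, rfl⟩ := (Nat.dvd_prime_pow (by norm_num)).1 hc
    obtain ⟨l, hl, rfl⟩ := (Nat.dvd_prime_pow (by norm_num)).1 hl'
    have hdZ : (D.d : ℤ) = 2 ^ i * 3 ^ j * 7 ^ k * 13 ^ l := by rw [← hdabc]; push_cast; rfl
    have h9 := chk i (by omega) j (by omega) k (by omega) l (by omega) D.ε
      (by rcases hε with h | h <;> rw [h] <;> simp) (by
        rw [← hdZ, mul_comm 4]
        exact Int.emod_eq_zero_of_dvd hddvd) (by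
        rw [← hdZ]
        apply Int.emod_eq_zero_of_dvd
        rw [← hrel]
        have h7 : ((charDegree (ψ : G → ℂ) : ℕ) : ℤ) ∣ 281655226944 := by
          have := Int.natCast_dvd_natCast.2 e2
          norm_num at this
          exact this
        rcases hf4' with h | h <;> rw [h]
        · rw [one_mul]; exact h7
        · rw [neg_one_mul, neg_dvd]; exact h7)
    rw [← hdZ] at h9
    rcases hε with h | h
    · rw [h, one_mul] at h9
      exact ⟨h, h9⟩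
    · rw [h] at h9
      omega
  have hψ9 : charDegree (ψ : G → ℂ) = 9126 := by
    rw [hε1, hd] at hrel
    rcases hf4' with h | h
    · rw [h] at hrel
      omega
    · rw [h] at hrel
      omega
  -- the element
  obtain ⟨x, hxA, hx1⟩ := (Subgroup.ne_bot_iff_exists_ne_one.1 hA.ne_bot).elim
    (fun y hy => (⟨y, y.2, fun h => hy (Subtype.ext h)⟩ : ∃ y ∈ A, y ≠ 1))
  have hxo : orderOf x = 73 := by
    have h1 : orderOf x ∣ 73 := by
      rw [← hA73]
      exact Subgroup.orderOf_dvd_natCard A hxA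
    rcases (Nat.dvd_prime (by norm_num)).1 h1 with h2 | h2
    · exact absurd (orderOf_eq_one_iff.1 h2) hx1
    · exact h2
  refine ⟨x, hxo, ?_⟩
  have hcx : Nat.card (Subgroup.centralizer ({x} : Set G)) = 73 := by rw [hA.cent x hxA hx1, hA73]
  have hdegC : ∀ χ : IrrCharacter G, ‖(χ : G → ℂ) 1‖ = (charDegree (χ : G → ℂ) : ℝ) := by
    intro χ
    rw [← H686.CharKit.charDegree_irr χ]
    simp
  have hnotR : ∀ χ : IrrCharacter G, χ ∉ D.R → ‖(χ : G → ℂ) x‖ ^ 2 = ((D.f χ ^ 2 : ℤ) : ℝ) := by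
    intro χ hχ
    rw [D.hf χ hχ x hxA hx1, Complex.norm_intCast, sq_abs]
    push_cast
    rfl
  have hS : ∑ χ ∈ D.R, ‖(χ : G → ℂ) x‖ ^ 2 = 69 := by
    have h1 := H686.CharKit.sum_normSq x
    simp only [Complex.normSq_eq_norm_sq] at h1
    rw [hcx, ← Finset.sum_add_sum_compl D.R] at h1
    have h2 : ∑ χ ∈ D.Rᶜ, ‖(χ : G → ℂ) x‖ ^ 2 = 4 := by
      rw [Finset.sum_congr rfl fun χ hχ => hnotR χ (Finset.mem_compl.1 hχ), ← Int.cast_sum]
      have h3 : ∑ χ ∈ D.Rᶜ, D.f χ ^ 2 = 4 := by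
        have h4 : ∑ χ ∈ D.R, D.f χ ^ 2 = 0 := Finset.sum_eq_zero fun χ hχ => by rw [D.hf0 χ hχ]; ring
        rw [← hsq', ← Finset.sum_add_sum_compl D.R, h4, zero_add]
      rw [h3]
      norm_num
    rw [h2] at h1
    push_cast at h1
    linarith
  have hR4 : ∑ χ ∈ D.R, (‖(χ : G → ℂ) x‖ * ‖(χ : G → ℂ) x‖ / ‖(χ : G → ℂ) 1‖) ^ 2 ≤ 69 ^ 2 / 529984 ^ 2 := by
    have h1 : ∀ χ ∈ D.R, (‖(χ : G → ℂ) x‖ * ‖(χ : G → ℂ) x‖ / ‖(χ : G → ℂ) 1‖) ^ 2 =
        (‖(χ : G → ℂ) x‖ ^ 2) ^ 2 / 529984 ^ 2 := by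
      intro χ hχ
      rw [hdegC, D.deg χ hχ]
      have : (D.d : ℝ) = 529984 := by exact_mod_cast hd
      rw [this, div_pow]
      ring
    rw [Finset.sum_congr rfl h1, ← Finset.sum_div]
    apply div_le_div_of_nonneg_right _ (by positivity)
    rw [← hS]
    exact sum_sq_le _ _ fun χ _ => by positivity
  have hterm : ∀ χ : IrrCharacter G, χ ∉ D.R → (‖(χ : G → ℂ) x‖ * ‖(χ : G → ℂ) x‖ / ‖(χ : G → ℂ) 1‖) ^ 2 =
      (((D.f χ ^ 2 : ℤ) : ℝ) / (charDegree (χ : G → ℂ) : ℝ)) ^ 2 := by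
    intro χ hχ
    rw [← pow_two, hnotR χ hχ, hdegC]
  have hnr : ∀ χ : IrrCharacter G, D.f χ ≠ 0 → χ ∉ D.R := fun χ h h' => h (D.hf0 χ h')
  have h1R : one G ∉ D.R := hnr _ (by rw [hf1]; norm_num)
  have h2R : χ₂ ∉ D.R := hnr _ (by rw [hf2]; norm_num)
  have h3R : χ₃ ∉ D.R := hnr _ (by rw [hf3]; norm_num)
  have hψn : ψ ≠ one G ∧ ψ ≠ χ₂ ∧ ψ ≠ χ₃ := by
    have h1 : ψ ∉ B := Finset.mem_compl.1 hψB
    simpa [B] using h1
  have hsub : ({ψ, one G, χ₂, χ₃} : Finset (IrrCharacter G)) ⊆ D.Rᶜ := by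
    intro χ hχ
    rw [Finset.mem_compl]
    simp only [Finset.mem_insert, Finset.mem_singleton] at hχ
    rcases hχ with rfl | rfl | rfl | rfl
    · exact hψR
    · exact h1R
    · exact h2R
    · exact h3R
  rw [← Finset.sum_add_sum_compl D.R]
  have hC : ∑ χ ∈ D.Rᶜ, (‖(χ : G → ℂ) x‖ * ‖(χ : G → ℂ) x‖ / ‖(χ : G → ℂ) 1‖) ^ 2 =
      1 + 1 / 531441 ^ 2 + 1 / 10584 ^ 2 + 1 / 9126 ^ 2 := by
    rw [← Finset.sum_subset hsub (f := fun χ : IrrCharacter G =>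
      (‖(χ : G → ℂ) x‖ * ‖(χ : G → ℂ) x‖ / ‖(χ : G → ℂ) 1‖) ^ 2) ?_]
    · rw [Finset.sum_insert (by simp [hψn]), Finset.sum_insert (by simp [n12, n13]), Finset.sum_pair n23,
        hterm _ hψR, hterm _ h1R, hterm _ h2R, hterm _ h3R, hf4, hf1, hf2, hf3, hψ9, hdeg1, d2, d3]
      norm_num
    · intro χ hχ hχB
      rw [hterm χ (Finset.mem_compl.1 hχ)]
      have h5 : D.f χ = 0 := by
        apply hz
        rw [Finset.mem_erase, Finset.mem_compl]
        simp only [Finset.mem_insert, Finset.mem_singleton, not_or] at hχB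
        refine ⟨hχB.1, ?_⟩
        simp only [B, Finset.mem_insert, Finset.mem_singleton, not_or]
        exact ⟨hχB.2.1, hχB.2.2.1, hχB.2.2.2⟩
      rw [h5]
      norm_num
  rw [hC]
  have h9 : (69 : ℝ) ^ 2 / 529984 ^ 2 + (1 + 1 / 531441 ^ 2 + 1 / 10584 ^ 2 + 1 / 9126 ^ 2) ≤ 1 + 38 / 10 ^ 9 := by
    norm_num
  linarith

/-- **Elements of `³D₄(3)` with a centralizer of order at most `2.6 * 10 ^ 7`** are products of two elements of order 73. -/
theorem pr_of_cent (hK : Fintype.card K = 3 ^ 3) (g : ↥(twistedD4 K 3))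
    (hg : Nat.card (Subgroup.centralizer ({g} : Set ↥(twistedD4 K 3))) ≤ 26000000) : H78.Pw.Pr 6 g := by
  classical
  have : Finite (IrrCharacter ↥(twistedD4 K 3)) := Core.finite_irr
  have := Fintype.ofFinite (IrrCharacter ↥(twistedD4 K 3))
  obtain ⟨x, hx, hW⟩ := exists_weight hK
  obtain ⟨a, b, rfl⟩ : H65.Ore.Prd x x g := by
    apply H65.Ore.prd_of_weighted
    have h1 : (Nat.card (Subgroup.centralizer ({g} : Set ↥(twistedD4 K 3))) : ℝ) ≤ 26000000 := by exact_mod_cast hg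
    have h2 : 1 ≤ Nat.card (Subgroup.centralizer ({g} : Set ↥(twistedD4 K 3))) := Nat.card_pos
    have h3 : (1 : ℝ) ≤ Nat.card (Subgroup.centralizer ({g} : Set ↥(twistedD4 K 3))) := by exact_mod_cast h2
    nlinarith
  have hc : ∀ a : ↥(twistedD4 K 3), (orderOf (a * x * a⁻¹)).Coprime 6 := by
    intro a
    have h1 : orderOf (a * x * a⁻¹) = 73 := by
      rw [← hx]
      exact orderOf_injective (MulAut.conj a).toMonoidHom (MulAut.conj a).injective x
    rw [h1]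
    norm_num
  exact H78.Pw.Pr.mk rfl (hc a) (hc b)

end

end Cfsg.Agent.H922.TD
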